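import Mathlib
import Cfsg.Agent.Base
import Cfsg.Agent.Lib.Block.Br43d

/-! Simple groups with fewer than `p ^ 2` Sylow `p`-subgroups (blueprint/NPS): definitions. -/

set_option autoImplicit false

open Cfsg H17.Ord H84 MulAction
open H86 (Cen Nor)
open scoped Pointwise

namespace NPS

/-- The numerical data: `p - 1 = A B`, the number of Sylow subgroups is `a c = 1 + r p`. -/
structure Par (p A B a c r : ℕ) : Prop where
  prime : p.Prime
  two : 2 ≤ A
  le : A ≤ B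
  mul : A * B + 1 = p
  ha : a + B = p
  hc : c = p + A
  hr : r + B + 1 = p + A

/-- A simple group in the represented case. -/
structure Ctx {G : Type*} [Group G] (p : ℕ) (P : Subgroup G) (e t A B a c r : ℕ) : Prop where
  simple : IsSimpleGroup G
  nc : ¬ IsMulCommutative G
  par : Par p A B a c r
  ht : t * e + 1 = p
  idx : (Nor P).index = a * c

/-- The non-trivial non-exceptional characters of the principal block, sorted by degree. -/
structure Fam (G : Type*) [Group G] (p t A B a c : ℕ) where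
  XA : Finset (IrrCharacter G)
  XM : Finset (IrrCharacter G)
  Xz : Finset (IrrCharacter G)
  XB : Finset (IrrCharacter G)
  XN : Finset (IrrCharacter G)
  dA : ∀ χ ∈ XA, dg χ = A * a
  dM : ∀ χ ∈ XM, dg χ = a * c
  dz : ∀ χ ∈ Xz, dg χ + 1 = p
  dB : ∀ χ ∈ XB, dg χ = B * c
  dN : ∀ χ ∈ XN, dg χ = (p - 1) * (a * c)
  vA : ∀ χ ∈ XA, ∀ g, p ∣ orderOf g → (χ : G → ℂ) g = 1
  vM : ∀ χ ∈ XM, ∀ g, p ∣ orderOf g → (χ : G → ℂ) g = 1
  vz : ∀ χ ∈ Xz, ∀ g, p ∣ orderOf g → (χ : G → ℂ) g = -1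
  vB : ∀ χ ∈ XB, ∀ g, p ∣ orderOf g → (χ : G → ℂ) g = -1
  vN : ∀ χ ∈ XN, ∀ g, p ∣ orderOf g → (χ : G → ℂ) g = -1
  tA : XA.Nonempty → t ∣ B
  tz : Xz.Nonempty → t ∣ a * c
  tB : XB.Nonempty → t ∣ A
  tN : XN.Nonempty → t = 1

namespace Fam

variable {G : Type*} [Group G] {p t A B a c : ℕ} (F : Fam G p t A B a c)

/-- The signed sum of a function over the family and the trivial character. -/
noncomputable def sg (f : IrrCharacter G → ℂ) : ℂ :=
  f (triv G) + ∑ χ ∈ F.XA, f χ + ∑ χ ∈ F.XM, f χ - ∑ χ ∈ F.Xz, f χ - ∑ χ ∈ F.XB, f χ -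
    ∑ χ ∈ F.XN, f χ

/-- The plain sum of a function over the family and the trivial character. -/
noncomputable def tot (f : IrrCharacter G → ℕ) : ℕ :=
  f (triv G) + ∑ χ ∈ F.XA, f χ + ∑ χ ∈ F.XM, f χ + ∑ χ ∈ F.Xz, f χ + ∑ χ ∈ F.XB, f χ +
    ∑ χ ∈ F.XN, f χ

/-- The number of characters, the trivial one included. -/
def n : ℕ := 1 + F.XA.card + F.XM.card + F.Xz.card + F.XB.card + F.XN.card

/-- The family is the whole block (`t = 1`). -/
structure One [Finite G] : Prop where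
  cnt : F.n = p
  rel : ∀ g, ¬ p ∣ orderOf g → F.sg (fun χ => (χ : G → ℂ) g) = 0
  le : ∀ f : IrrCharacter G → ℕ, F.tot f ≤ ∑ χ, f χ

/-- The family is the non-exceptional part of the block (`2 ≤ t`). -/
structure Two [Finite G] {P : Subgroup G} {e : ℕ} (D : PB G p P e) : Prop where
  cnt : F.n = e
  nN : F.XN = ∅
  rel : ∀ θ ∈ D.Y, ∀ g, ¬ p ∣ orderOf g → D.δ * (θ : G → ℂ) g = F.sg fun χ => (χ : G → ℂ) g
  le : ∀ f : IrrCharacter G → ℕ, F.tot f + ∑ θ ∈ D.Y, f θ ≤ ∑ χ, f χ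
  sing : Cen P = P → ∀ (m : IrrCharacter G → ℂ) (g : G), p ∣ orderOf g →
    ∑ χ, m χ * (χ : G → ℂ) g = F.sg m + ∑ θ ∈ D.Y, m θ * (θ : G → ℂ) g

end Fam

/-- The `p'`-part of the centraliser of a Sylow subgroup of order `p`. -/
def V {G : Type*} [Group G] (p : ℕ) (Q : Subgroup G) : Subgroup G :=
  Subgroup.closure {g | g ∈ Cen Q ∧ ¬ p ∣ orderOf g}

/-- Sylow subgroups of order `p`, fewer than `p ^ 2` of them. -/
structure SP (G : Type*) [Group G] (p r : ℕ) : Prop where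
  simple : IsSimpleGroup G
  nc : ¬ IsMulCommutative G
  card : ∀ Q : Sylow p G, Nat.card (Q : Subgroup G) = p
  num : Nat.card (Sylow p G) = 1 + r * p
  lt : r < p

/-- The Sylow subgroups normalised by `U`. -/
def Fx {G : Type*} [Group G] (p : ℕ) (U : Subgroup G) : Set (Sylow p G) := {R | ∀ u ∈ U, u • R = R}

/-- The translates of `Fx p U`. -/
def Line {G : Type*} [Group G] (p : ℕ) (U : Subgroup G) (L : Set (Sylow p G)) : Prop :=
  ∃ g : G, L = g • Fx p U

/-- `U` is maximal among the intersections `V γ ⊓ V γ'`. -/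
structure Mx {G : Type*} [Group G] (p : ℕ) (U : Subgroup G) : Prop where
  ne : U ≠ ⊥
  ex : ∃ γ γ' : Sylow p G, γ ≠ γ' ∧ U = V p (γ : Subgroup G) ⊓ V p (γ' : Subgroup G)
  max : ∀ γ γ' : Sylow p G, γ ≠ γ' → U ≤ V p (γ : Subgroup G) ⊓ V p (γ' : Subgroup G) →
    U = V p (γ : Subgroup G) ⊓ V p (γ' : Subgroup G)

/-- `y` acts on `Q` as the `k`-th power map. -/
def Ex {G : Type*} [Group G] (Q : Subgroup G) (y : G) (k : ℕ) : Prop := ∀ w ∈ Q, y * w * y⁻¹ = w ^ k

theorem nps_eq_defs : True := by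
  have := @Fam.sg.eq_1.{0}
  have := @Fam.tot.eq_1.{0}
  have := @Fam.n.eq_1.{0}
  have := @V.eq_1.{0}
  have := @Fx.eq_1.{0}
  have := @Line.eq_1.{0}
  have := @Ex.eq_1.{0}
  trivial

end NPS
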