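import Mathlib
import Cfsg.Agent.Lib.NPS.Defs

/-! See `blueprint/NPS/README.md`. -/

set_option autoImplicit false
set_option linter.unusedSectionVars false
set_option linter.unusedVariables false
set_option linter.style.haveILetI false

open Cfsg H17.Ord H84 MulAction
open H86 (Cen Nor)
open scoped Pointwise ComplexConjugate

namespace NPS

namespace Par

variable {p A B a c r t : ℕ} (h : Par p A B a c r)

include h

theorem M_eq : a * c = 1 + r * p := by
  obtain ⟨-, -, -, h1, h2, h3, h4⟩ := h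
  zify at *
  linear_combination a * h3 + (p + A) * h2 - p * h4 - h1

theorem X_eq : A * a + p = A * p + 1 := by
  obtain ⟨-, -, -, h1, h2, h3, h4⟩ := h
  zify at *
  linear_combination A * h2 - h1

theorem Y_eq : B * c + 1 = (B + 1) * p := by
  obtain ⟨-, -, -, h1, h2, h3, h4⟩ := h
  zify at *
  linear_combination B * h3 + h1

theorem r_eq : r + B = A * B + A := by
  obtain ⟨-, -, -, h1, h2, h3, h4⟩ := h
  omega

theorem five_le : 5 ≤ p := by
  have := Nat.mul_le_mul h.two (h.two.trans h.le)
  have := h.mul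
  omega

theorem cop_aB : a.Coprime B := by
  have : (a + B).Coprime B := by
    rw [h.ha, ← h.mul]
    simp
  simpa using this

theorem cop_cA : c.Coprime A := by
  rw [h.hc, ← h.mul]
  simp

theorem cop_pA : p.Coprime A := by
  rw [← h.mul]
  simp

theorem cop_pB : p.Coprime B := by
  rw [← h.mul]
  simp

theorem div1 {k : ℕ} (hk : k ∣ (p - 1) * (a * c)) (h1 : k % p = 1) :
    k = 1 ∨ k = A * a ∨ k = a * c := by
  obtain ⟨k', hk'⟩ := hk
  have hM := h.M_eq
  have hX := h.X_eq
  have hr := h.r_eq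
  have h5 := h.five_le
  have hA := h.two
  have hB := h.le
  have hp := h.mul
  obtain ⟨u, rfl⟩ : ∃ u, k = u * p + 1 := ⟨k / p, by rw [← h1, Nat.div_add_mod']⟩
  have e : ((p : ℤ) - 1) * (1 + r * p) = (u * p + 1) * k' := by
    rw [hM] at hk'
    zify [show 1 ≤ p by omega] at hk'
    exact hk'
  obtain ⟨w, hw⟩ : ∃ w : ℤ, (k' : ℤ) + 1 = w * p :=
    ⟨1 + (p - 1) * r - u * k', by linear_combination -e⟩
  have p0 : (0 : ℤ) < p := by omega
  have w1 : 1 ≤ w := by
    by_contra hn
    have : w * p ≤ 0 := mul_nonpos_of_nonpos_of_nonneg (by omega) p0.le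
    omega
  have e2 : ((u : ℤ) + 1) * (w - 1) = (r - u * w) * (p - 1) := by
    refine mul_left_cancel₀ p0.ne' ?_
    linear_combination -e - (u * p + 1) * hw
  rcases Nat.eq_zero_or_pos u with rfl | u1
  · left
    simp
  rcases w1.eq_or_lt with rfl | w2
  · right; right
    have : k' = p - 1 := by omega
    rw [this, mul_comm] at hk'
    exact (Nat.eq_of_mul_eq_mul_right (by omega) hk').symm
  right; left
  have u1' : (1 : ℤ) ≤ u := by omega
  have g1 : (r : ℤ) - u * w = 1 := by
    have a1 : 0 < ((u : ℤ) + 1) * (w - 1) := mul_pos (by omega) (by omega)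
    have a2 : 0 < (r : ℤ) - u * w := by
      rw [e2] at a1
      exact (pos_iff_pos_of_mul_pos a1).2 (by omega)
    by_contra hn
    have a3 : 2 * ((p : ℤ) - 1) ≤ (r - u * w) * (p - 1) := mul_le_mul_of_nonneg_right (by omega) (by omega)
    have a4 : w ≤ u * w := le_mul_of_one_le_left (by omega) u1'
    have a5 : (r : ℤ) + 1 ≤ p := by omega
    nlinarith
  zify at hr hp hX ⊢
  have e3 : ((u : ℤ) + 1 - A) * (u + 1 + B) = 0 := by
    rw [g1] at e2
    have : w = u + 2 - A + B := by linear_combination e2 + g1 - hr - hp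
    rw [this] at e2
    linear_combination e2 - hp
  have e4 : (u : ℤ) + 1 - A = 0 := (mul_eq_zero.1 e3).resolve_right (by omega)
  linear_combination p * e4 - hX

theorem div2 {k : ℕ} (hk : k ∣ (p - 1) * (a * c)) (h1 : k % p = p - 1) :
    k = p - 1 ∨ k = B * c ∨ k = (p - 1) * (a * c) := by
  obtain ⟨k', hk'⟩ := hk
  have hM := h.M_eq
  have h5 := h.five_le
  have hA := h.two
  have hp := h.mul
  have a0 : 0 < a * c := by omega
  have e1 : k' % p = 1 := by
    have e := hk'
    have e' := Nat.div_add_mod k p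
    rw [hM] at e
    rw [h1] at e'
    zify [show 1 ≤ p by omega] at e e'
    have : k' ≡ 1 [MOD p] := Nat.modEq_iff_dvd.2
      ⟨1 + (p - 1) * r - (k / p + 1) * k', by push_cast; linear_combination -e + k' * e'⟩
    rw [this, Nat.mod_eq_of_lt (by omega)]
  rcases h.div1 ⟨k, hk'.trans (mul_comm _ _)⟩ e1 with rfl | rfl | rfl
  · right; right
    rw [hk', mul_one]
  · right; left
    rw [show p - 1 = A * B by omega] at hk'
    refine Nat.eq_of_mul_eq_mul_right (Nat.mul_pos (show 0 < A by omega) (Nat.pos_of_mul_pos_right a0)) ?_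
    rw [← hk']
    ring
  · left
    exact (Nat.eq_of_mul_eq_mul_right a0 hk').symm

theorem dvd_B (h1 : t ∣ p - 1) (h2 : t ∣ B * c) : t ∣ B := by
  have hp := h.mul
  rw [show p - 1 = A * B by omega] at h1
  rw [h.hc, ← hp, show B * (A * B + 1 + A) = A * B * (B + 1) + B by ring] at h2
  exact (Nat.dvd_add_right (h1.mul_right _)).1 h2

theorem dvd_A (h1 : t ∣ p - 1) (h2 : t ∣ A * a) : t ∣ A := by
  have hp := h.mul
  rw [show p - 1 = A * B by omega] at h1
  have h3 := dvd_add h2 h1
  rw [← mul_add, h.ha, ← hp, show A * (A * B + 1) = A * B * A + A by ring] at h3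
  exact (Nat.dvd_add_right (h1.mul_right _)).1 h3

theorem eq_one (h1 : t ∣ A) (h2 : t ∣ B) (h3 : t ∣ a * c) : t = 1 :=
  Nat.Coprime.eq_one_of_dvd (Nat.Coprime.mul_right (h.cop_aB.coprime_dvd_right h2).symm
    (h.cop_cA.coprime_dvd_right h1).symm) h3

theorem big : p * (p - 1) < 2 * (a * c) := by
  have hr := h.r_eq
  have hp := h.mul
  have h1 := Nat.mul_le_mul_right B h.two
  have h2 : p * (p - 1) ≤ p * (2 * r) := Nat.mul_le_mul_left p (by omega)
  rw [h.M_eq]
  nlinarith

end Par

end NPS
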