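import Mathlib
import Cfsg.Agent.Lib.NPS.Num

/-! See `blueprint/NPS/README.md`. -/

set_option autoImplicit false
set_option linter.unusedSectionVars false
set_option linter.unusedVariables false
set_option linter.style.haveILetI false

open Cfsg H17.Ord H84 MulAction
open H86 (Cen Nor)
open scoped Pointwise ComplexConjugate

namespace NPS

variable {G : Type*} [Group G] [Finite G] {p : ℕ} [hp : Fact p.Prime] {P : Subgroup G}
  {e t A B a c r : ℕ}

theorem Fam.perf (h : Ctx p P e t A B a c r) : commutator G = ⊤ := by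
  haveI := h.simple
  exact (inferInstance : (commutator G).Normal).eq_bot_or_eq_top.resolve_left fun h1 =>
    h.nc ((commutator_eq_bot_iff G).1 h1)

theorem Fam.build (h : Ctx p P e t A B a c r) (D : PB G p P e) (Z : Finset (IrrCharacter G))
    (s : IrrCharacter G → ℤ) (h0 : triv G ∈ Z)
    (hs : ∀ χ ∈ Z, (s χ = 1 ∧ dg χ % p = 1) ∨ (s χ = -1 ∧ dg χ % p = p - 1))
    (hv : ∀ χ ∈ Z, ∀ g, p ∣ orderOf g → (χ : G → ℂ) g = s χ) :
    ∃ F : Fam G p t A B a c, F.n = Z.card ∧ (∀ f, F.sg f = ∑ χ ∈ Z, (s χ : ℂ) * f χ) ∧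
      ∀ f, F.tot f = ∑ χ ∈ Z, f χ := by
  classical
  have hP := h.par
  have he0 := D.e_pos
  have hte : t * e = A * B := by have := h.ht; have := hP.mul; omega
  have hpe : p - 1 = t * e := by have := h.ht; omega
  have hA0 : 0 < A := by have := hP.two; omega
  have hB0 : 0 < B := by have := hP.two; have := hP.le; omega
  have hc0 : 0 < c := by have := hP.hc; omega
  have hM0 : 0 < a * c := by rw [hP.M_eq]; omega
  have ha0 : 0 < a := Nat.pos_of_mul_pos_right hM0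
  have hd : ∀ χ ∈ Z, dg χ ∣ e * (a * c) := fun χ hχ => by
    rw [← h.idx, ← index_Cen D]
    exact dvd_index_of_val D ((hs χ hχ).imp And.left And.left) (hv χ hχ)
  have hd' : ∀ χ ∈ Z, dg χ ∣ (p - 1) * (a * c) := fun χ hχ =>
    (hd χ hχ).trans (Nat.mul_dvd_mul_right D.e_dvd _)
  have hs1 : s (triv G) = 1 := by
    obtain ⟨x, -, hx⟩ := D.exists_sing
    exact_mod_cast (hv _ h0 x hx.symm.dvd).symm.trans (triv_apply x)
  obtain ⟨Zp, hZp⟩ : ∃ Zp, Zp = (Z.erase (triv G)).filter (s · = 1) := ⟨_, rfl⟩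
  obtain ⟨Zm, hZm⟩ : ∃ Zm, Zm = (Z.erase (triv G)).filter (¬ s · = 1) := ⟨_, rfl⟩
  have hp1 : ∀ χ ∈ Zp, χ ∈ Z ∧ s χ = 1 ∧ (dg χ = A * a ∨ dg χ = a * c) := fun χ hχ => by
    rw [hZp, Finset.mem_filter, Finset.mem_erase] at hχ
    obtain ⟨⟨h1, h2⟩, h3⟩ := hχ
    refine ⟨h2, h3, (hP.div1 (hd' χ h2) ((hs χ h2).resolve_right (by omega)).2).resolve_left
      fun h4 => h1 (eq_triv_of_perfect (Fam.perf h) h4)⟩
  have hm1 : ∀ χ ∈ Zm, χ ∈ Z ∧ s χ = -1 ∧
      (dg χ = p - 1 ∨ dg χ = B * c ∨ dg χ = (p - 1) * (a * c)) := fun χ hχ => by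
    rw [hZm, Finset.mem_filter, Finset.mem_erase] at hχ
    obtain ⟨⟨h1, h2⟩, h3⟩ := hχ
    have h4 := (hs χ h2).resolve_left fun h5 => h3 h5.1
    exact ⟨h2, h4.1, hP.div2 (hd' χ h2) h4.2⟩
  have hvp : ∀ χ ∈ Zp, ∀ g, p ∣ orderOf g → (χ : G → ℂ) g = 1 := fun χ hχ g hg => by
    rw [hv χ (hp1 χ hχ).1 g hg, (hp1 χ hχ).2.1, Int.cast_one]
  have hvm : ∀ χ ∈ Zm, ∀ g, p ∣ orderOf g → (χ : G → ℂ) g = -1 := fun χ hχ g hg => by
    rw [hv χ (hm1 χ hχ).1 g hg, (hm1 χ hχ).2.1, Int.cast_neg, Int.cast_one]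
  have hN : ∀ χ ∈ (Zm.filter (¬ dg · = p - 1)).filter (¬ dg · = B * c),
      dg χ = (p - 1) * (a * c) := fun χ hχ => by
    rw [Finset.mem_filter, Finset.mem_filter] at hχ
    exact ((hm1 χ hχ.1.1).2.2.resolve_left hχ.1.2).resolve_left hχ.2
  have hsum : ∀ {R : Type} [AddCommMonoid R] (f : IrrCharacter G → R), ∑ χ ∈ Z, f χ =
      f (triv G) + (∑ χ ∈ Zp.filter (dg · = A * a), f χ + ∑ χ ∈ Zp.filter (¬ dg · = A * a), f χ) +
      (∑ χ ∈ Zm.filter (dg · = p - 1), f χ +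
        (∑ χ ∈ (Zm.filter (¬ dg · = p - 1)).filter (dg · = B * c), f χ +
        ∑ χ ∈ (Zm.filter (¬ dg · = p - 1)).filter (¬ dg · = B * c), f χ)) := fun f => by
    rw [Finset.sum_filter_add_sum_filter_not, Finset.sum_filter_add_sum_filter_not,
      Finset.sum_filter_add_sum_filter_not, add_assoc, hZp, hZm,
      Finset.sum_filter_add_sum_filter_not, Finset.add_sum_erase _ _ h0]
  refine ⟨⟨Zp.filter (dg · = A * a), Zp.filter (¬ dg · = A * a), Zm.filter (dg · = p - 1),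
    (Zm.filter (¬ dg · = p - 1)).filter (dg · = B * c),
    (Zm.filter (¬ dg · = p - 1)).filter (¬ dg · = B * c),
    fun χ hχ => (Finset.mem_filter.1 hχ).2,
    fun χ hχ => (hp1 χ (Finset.mem_filter.1 hχ).1).2.2.resolve_left (Finset.mem_filter.1 hχ).2,
    fun χ hχ => by rw [(Finset.mem_filter.1 hχ).2]; have := hp.out.pos; omega,
    fun χ hχ => (Finset.mem_filter.1 hχ).2, hN,
    fun χ hχ => hvp χ (Finset.mem_filter.1 hχ).1, fun χ hχ => hvp χ (Finset.mem_filter.1 hχ).1,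
    fun χ hχ => hvm χ (Finset.mem_filter.1 hχ).1,
    fun χ hχ => hvm χ (Finset.mem_filter.1 (Finset.mem_filter.1 hχ).1).1,
    fun χ hχ => hvm χ (Finset.mem_filter.1 (Finset.mem_filter.1 hχ).1).1,
    ?_, ?_, ?_, ?_⟩, ?_, fun f => ?_, fun f => ?_⟩
  · rintro ⟨χ, hχ⟩
    obtain ⟨h1, h2⟩ := Finset.mem_filter.1 hχ
    have h3 := hd χ (hp1 χ h1).1
    rw [h2, show e * (a * c) = e * c * a by ring] at h3
    obtain ⟨k, hk⟩ := hP.cop_cA.symm.dvd_of_dvd_mul_right (Nat.dvd_of_mul_dvd_mul_right ha0 h3)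
    exact ⟨k, Nat.eq_of_mul_eq_mul_left hA0 (by rw [← hte, hk]; ring)⟩
  · rintro ⟨χ, hχ⟩
    obtain ⟨h1, h2⟩ := Finset.mem_filter.1 hχ
    have h3 := hd χ (hm1 χ h1).1
    rw [h2, hpe, mul_comm t] at h3
    exact Nat.dvd_of_mul_dvd_mul_left he0 h3
  · rintro ⟨χ, hχ⟩
    obtain ⟨h1, h2⟩ := Finset.mem_filter.1 hχ
    have h3 := hd χ (hm1 χ (Finset.mem_filter.1 h1).1).1
    rw [h2, ← mul_assoc] at h3
    obtain ⟨k, hk⟩ := hP.cop_aB.symm.dvd_of_dvd_mul_right (Nat.dvd_of_mul_dvd_mul_right hc0 h3)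
    exact ⟨k, Nat.eq_of_mul_eq_mul_right hB0 (by rw [← hte, hk]; ring)⟩
  · rintro ⟨χ, hχ⟩
    have h3 := hd χ (hm1 χ (Finset.mem_filter.1 (Finset.mem_filter.1 hχ).1).1).1
    rw [hN χ hχ, hpe] at h3
    have h4 := Nat.dvd_of_mul_dvd_mul_right hM0 h3
    nth_rewrite 2 [← one_mul e] at h4
    exact Nat.dvd_one.1 (Nat.dvd_of_mul_dvd_mul_right he0 h4)
  · have := hsum fun _ => 1
    simp only [← Finset.card_eq_sum_ones] at this
    rw [this]
    simp only [Fam.n]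
    omega
  · have e1 : ∀ S ⊆ Zp, ∑ χ ∈ S, (s χ : ℂ) * f χ = ∑ χ ∈ S, f χ := fun S hS =>
      Finset.sum_congr rfl fun χ hχ => by rw [(hp1 χ (hS hχ)).2.1, Int.cast_one, one_mul]
    have e2 : ∀ S ⊆ Zm, ∑ χ ∈ S, (s χ : ℂ) * f χ = -∑ χ ∈ S, f χ := fun S hS => by
      rw [← Finset.sum_neg_distrib]
      exact Finset.sum_congr rfl fun χ hχ => by
        rw [(hm1 χ (hS hχ)).2.1, Int.cast_neg, Int.cast_one, neg_one_mul]
    rw [hsum, e1 _ (Finset.filter_subset _ _), e1 _ (Finset.filter_subset _ _),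
      e2 _ (Finset.filter_subset _ _),
      e2 _ ((Finset.filter_subset _ _).trans (Finset.filter_subset _ _)),
      e2 _ ((Finset.filter_subset _ _).trans (Finset.filter_subset _ _)), hs1]
    simp only [Fam.sg]
    push_cast
    ring
  · rw [hsum]
    simp only [Fam.tot]
    ring

theorem exists_one (h : Ctx p P e t A B a c r) (D : PB G p P e) (h1 : t = 1) :
    ∃ F : Fam G p t A B a c, F.One := by
  have he : e = p - 1 := by have := h.ht; rw [h1] at this; omega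
  obtain ⟨Z, s, hZ, h0, -, hs, hv, hr⟩ := D.full he
  obtain ⟨F, h2, h3, h4⟩ := Fam.build h D Z s h0 hs hv
  exact ⟨F, h2.trans hZ, fun g hg => (h3 _).trans (hr g hg), fun f =>
    (h4 f).trans_le (Finset.sum_le_sum_of_subset (Finset.subset_univ _))⟩

theorem exists_two (h : Ctx p P e t A B a c r) (D : PB G p P e) (h2 : 2 ≤ t) :
    ∃ F : Fam G p t A B a c, F.Two D := by
  classical
  have he : e < p - 1 := by
    have := h.ht
    have := D.e_pos
    have : 2 * e ≤ t * e := Nat.mul_le_mul_right e h2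
    omega
  obtain ⟨F, h3, h4, h5⟩ := Fam.build h D D.X D.ε (triv_mem_X D he) (fun χ => D.modX) D.valX
  refine ⟨F, h3.trans D.cardX, Finset.not_nonempty_iff_eq_empty.1 fun h6 => ?_,
    fun θ hθ g hg => (D.rel θ hθ g hg).trans (h4 _).symm, fun f => ?_, fun hC m g hg => ?_⟩
  · have := F.tN h6
    omega
  · rw [h5, sum_split D f]
    exact Nat.le_add_right _ _
  · rw [sum_split D, h4, Finset.sum_eq_zero (s := (D.X ∪ D.Y)ᶜ) fun χ hχ => by
      rw [Finset.mem_compl, Finset.mem_union, not_or] at hχ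
      rw [D.van hC χ hχ.1 hχ.2 g hg, mul_zero], add_zero]
    congr 1
    exact Finset.sum_congr rfl fun χ hχ => by rw [D.valX χ hχ g hg, mul_comm]

theorem degY (h : Ctx p P e t A B a c r) (D : PB G p P e) (h2 : 2 ≤ t) {θ : IrrCharacter G}
    (hθ : θ ∈ D.Y) : (D.δ = 1 ∧ (dg θ = e ∨ t * dg θ = B * c ∨ dg θ = e * (a * c))) ∨
      (D.δ = -1 ∧ (t * dg θ = A * a ∨ t * dg θ = a * c)) := by
  have ht := h.ht
  have he0 := D.e_pos
  have hpe : p - 1 = t * e := by omega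
  have h2e : 2 * e ≤ t * e := Nat.mul_le_mul_right e h2
  have hd : t * dg θ ∣ (p - 1) * (a * c) := by
    rw [hpe, mul_assoc, ← h.idx, ← index_Cen D]
    exact Nat.mul_dvd_mul_left _ (dvd_index_Y D hθ)
  refine (D.modY hθ).imp (fun h3 => ⟨h3.1, ?_⟩) fun h3 => ⟨h3.1, ?_⟩
  · have h4 : t * dg θ % p = p - 1 := by
      rw [← Nat.mul_mod_mod, h3.2, Nat.mod_eq_of_lt (by omega)]; omega
    refine (h.par.div2 hd h4).imp (fun h5 => ?_) (Or.imp_right fun h5 => ?_)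
    · exact Nat.eq_of_mul_eq_mul_left (by omega : 0 < t) (h5.trans hpe)
    · exact Nat.eq_of_mul_eq_mul_left (by omega : 0 < t) (by rw [h5, hpe, mul_assoc])
  · have h4 : t * dg θ % p = 1 := by
      rw [← Nat.mul_mod_mod, h3.2, show t * (p - e) = 1 + p * (t - 1) by
        zify [show e ≤ p by omega, show 1 ≤ t by omega] at ht ⊢; linear_combination -ht,
        Nat.add_mul_mod_self_left, Nat.mod_eq_of_lt hp.out.one_lt]
    refine (h.par.div1 hd h4).resolve_left fun h5 => ?_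
    have := Nat.le_of_dvd one_pos (Dvd.intro _ h5)
    omega

theorem Fam.sg_one (F : Fam G p t A B a c) : F.sg (fun χ => (χ : G → ℂ) 1) =
    ((1 + F.XA.card * (A * a) + F.XM.card * (a * c) : ℕ) : ℂ) -
      (F.Xz.card * (p - 1) + F.XB.card * (B * c) + F.XN.card * ((p - 1) * (a * c)) : ℕ) := by
  have hz : ∀ χ ∈ F.Xz, dg χ = p - 1 := fun χ hχ => by have := F.dz χ hχ; omega
  simp only [Fam.sg]
  rw [sum_dg F.dA, sum_dg F.dM, sum_dg hz, sum_dg F.dB, sum_dg F.dN, triv_apply]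
  simp only [Nat.cast_add, Nat.cast_mul, Nat.cast_one]
  ring

theorem Fam.One.deg {F : Fam G p t A B a c} (hF : F.One) :
    1 + F.XA.card * (A * a) + F.XM.card * (a * c) =
      F.Xz.card * (p - 1) + F.XB.card * (B * c) + F.XN.card * ((p - 1) * (a * c)) := by
  have h1 := hF.rel 1 PB.reg_one
  rw [Fam.sg_one, sub_eq_zero] at h1
  exact Nat.cast_injective h1

theorem Fam.Two.deg_pos {F : Fam G p t A B a c} {D : PB G p P e} (hF : F.Two D)
    {θ : IrrCharacter G} (hθ : θ ∈ D.Y) (hδ : D.δ = 1) :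
    dg θ + F.Xz.card * (p - 1) + F.XB.card * (B * c) =
      1 + F.XA.card * (A * a) + F.XM.card * (a * c) := by
  have h1 := hF.rel θ hθ 1 PB.reg_one
  rw [Fam.sg_one, hF.nN, Finset.card_empty, zero_mul, add_zero, hδ, dg_cast, Int.cast_one, one_mul,
    eq_sub_iff_add_eq, ← Nat.cast_add, ← add_assoc] at h1
  exact Nat.cast_injective h1

theorem Fam.Two.deg_neg {F : Fam G p t A B a c} {D : PB G p P e} (hF : F.Two D)
    {θ : IrrCharacter G} (hθ : θ ∈ D.Y) (hδ : D.δ = -1) :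
    dg θ + 1 + F.XA.card * (A * a) + F.XM.card * (a * c) =
      F.Xz.card * (p - 1) + F.XB.card * (B * c) := by
  have h1 := hF.rel θ hθ 1 PB.reg_one
  rw [Fam.sg_one, hF.nN, Finset.card_empty, zero_mul, add_zero, hδ, dg_cast, Int.cast_neg,
    Int.cast_one, neg_one_mul, neg_eq_iff_eq_neg, neg_sub, eq_sub_iff_add_eq, ← Nat.cast_add,
    ← add_assoc, ← add_assoc] at h1
  exact Nat.cast_injective h1

end NPS
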