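import Mathlib
import Cfsg.Agent.Lib.NPS.Defs

/-! See `blueprint/NPS/README.md`. -/

set_option autoImplicit false
set_option linter.unusedSectionVars false
set_option linter.unusedVariables false
set_option linter.style.haveILetI false

open Cfsg H17.Ord H84 MulAction
open H86 (Cen Nor)
open scoped Pointwise ComplexConjugate

namespace NPS

variable {G : Type*} [Group G] [Finite G] {p : ℕ} [hp : Fact p.Prime] {P : Subgroup G}
  {e t A B a c r : ℕ}

namespace IA

theorem dvd_central (χ : IrrCharacter G) {g : G} (hz : (χ : G → ℂ) g = 1) :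
    dg χ ∣ (Subgroup.centralizer ({g} : Set G)).index := by
  have h := H84.isIntegral_centralChar χ g
  have h0 : (dg χ : ℚ) ≠ 0 := by exact_mod_cast (dg_pos χ).ne'
  obtain ⟨w, hw⟩ := H8.exists_int_of_isIntegral_rat
    (q := ((Subgroup.centralizer ({g} : Set G)).index : ℚ) / dg χ) (by
      rw [centralChar, hz, dg_cast, mul_one] at h
      push_cast
      exact h)
  rw [div_eq_iff h0, mul_comm (w : ℚ)] at hw
  have : ((Subgroup.centralizer ({g} : Set G)).index : ℤ) = dg χ * w := by exact_mod_cast hw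
  exact Int.natCast_dvd_natCast.1 ⟨w, this⟩

theorem card_class [Fintype G] (z : G) [DecidablePred (IsConj z)] :
    (Finset.univ.filter (IsConj z)).card = (Subgroup.centralizer ({z} : Set G)).index := by
  have h := H6.sum_classInd_mul z (H7.isClassFunction_const (G := G) 1)
  have e : ∀ g, H6.classInd z g * 1 = if IsConj z g then 1 else 0 := fun g => by
    split_ifs with hg
    · rw [H6.classInd_of_isConj hg, mul_one]
    · rw [H6.classInd_of_not_isConj hg, mul_one]
  rw [Finset.sum_congr rfl fun g _ => e g, Finset.sum_boole, mul_one] at h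
  exact_mod_cast h

theorem dvd_index (D : PB G p P e) (hC : Cen P = P) {g : G} (h1 : g ≠ 1) (hg : ¬ p ∣ orderOf g) :
    p ∣ (Subgroup.centralizer ({g} : Set G)).index := by
  have hS := scs_of D.card D.ind hC
  have h := (Subgroup.centralizer ({g} : Set G)).card_mul_index
  have hd : p ∣ Nat.card G := D.card ▸ P.card_subgroup_dvd_card
  refine ((hp.out.dvd_mul).1 (h ▸ hd)).resolve_left fun hc => ?_
  obtain ⟨x, hx⟩ := exists_prime_orderOf_dvd_card' p hc
  rw [← Subgroup.orderOf_coe] at hx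
  obtain ⟨Q, hQ⟩ := hS.exists_mem_of_sing (hx ▸ dvd_rfl : p ∣ orderOf (x : G))
  have := hS.fpf (y := g) (Q := Q) (fun e => hg (hS.dvd_of_mem h1 e)) x hQ
    (Subgroup.mem_centralizer_singleton_iff.1 x.2)
  rw [this, orderOf_one] at hx
  exact hp.out.one_lt.ne hx

end IA

theorem ia [IsSimpleGroup G] (hG : ¬ IsMulCommutative G) (D : PB G p P 2) (hC : Cen P = P)
    (h5 : 5 ≤ p) (hi : 2 * (Nor P).index = (p + 1) * (p + 2)) {χ θ : IrrCharacter G}
    (hχ : dg χ = p + 1) (hθ : dg θ = p + 2) (hv : ∀ g, p ∣ orderOf g → (χ : G → ℂ) g = 1)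
    (hr : ∀ g, ¬ p ∣ orderOf g → (θ : G → ℂ) g = 1 + (χ : G → ℂ) g) :
    (∃ k : ℕ, p + 1 = 2 ^ k) ∧ ∃ (F : Type) (_ : Field F) (_ : Fintype F), Fintype.card F = p + 1 ∧
      Nonempty (G ≃* Matrix.ProjectiveSpecialLinearGroup (Fin 2) F) := by
  classical
  haveI := Fintype.ofFinite G
  have hp2 : p ≠ 2 := by omega
  have hodd : Odd p := hp.out.odd_of_ne_two hp2
  have hc : Nat.card G = p * ((p + 1) * (p + 2)) := by rw [card_eq_of_selfcent D hC, hi]
  have v1 : ∀ g q, q.Prime → q ∣ orderOf g → q ∣ p + 1 → (χ : G → ℂ) g = 0 := fun g q hq h1 h2 => by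
    refine van_of_mul (c := p * (p + 2)) hq (by rw [hχ, hc]; ring) (fun h3 => ?_) h1
    rcases hq.dvd_mul.1 h3 with h3 | h3
    · exact hq.one_lt.ne' (Nat.dvd_one.1 ((Nat.dvd_add_right h3).1 h2))
    · exact hq.one_lt.ne' (Nat.dvd_one.1 ((Nat.dvd_add_right h2).1 h3))
  have v2 : ∀ g, g ≠ 1 → ¬ p ∣ orderOf g → (χ : G → ℂ) g = 0 ∨ (χ : G → ℂ) g = -1 := fun g h1 hg => by
    obtain ⟨q, hq, hd⟩ := Nat.exists_prime_and_dvd (mt orderOf_eq_one_iff.1 h1)
    have hqp : ¬ q ∣ p := fun h => hg ((Nat.prime_dvd_prime_iff_eq hq hp.out).1 h ▸ hd)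
    by_cases h2 : q ∣ p + 1
    · exact Or.inl (v1 g q hq hd h2)
    · have := van_of_mul (χ := θ) (c := p * (p + 1)) hq (by rw [hθ, hc]; ring)
        (fun h3 => (hq.dvd_mul.1 h3).elim hqp h2) hd
      rw [hr g hg] at this
      exact Or.inr (by linear_combination this)
  have hχ1 : (χ : G → ℂ) 1 = p + 1 := by rw [dg_cast, hχ]; push_cast; rfl
  have hne : (p : ℂ) + 1 ≠ 0 := by exact_mod_cast Nat.succ_ne_zero p
  have hpt : ∀ g : G, (χ : G → ℂ) g + 1 = (if g = 1 then (p : ℂ) + 2 else 0) +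
      2 * (if p ∣ orderOf g then (1 : ℂ) else 0) + if (χ : G → ℂ) g = 0 then 1 else 0 := fun g => by
    by_cases h1 : g = 1
    · subst h1
      rw [if_pos rfl, if_neg (by rw [orderOf_one]; exact hp.out.not_dvd_one), if_neg (hχ1 ▸ hne), hχ1]; ring
    · by_cases hg : p ∣ orderOf g
      · rw [if_neg h1, if_pos hg, hv g hg, if_neg one_ne_zero]; ring
      · rcases v2 g h1 hg with h | h
        · rw [if_neg h1, if_neg hg, if_pos h, h]; ring
        · rw [if_neg h1, if_neg hg, h, if_neg (neg_ne_zero.2 one_ne_zero)]; ring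
  have hnt : χ ≠ triv G := fun h => by
    rw [h, dg_triv] at hχ
    omega
  have hn1 : (Finset.univ.filter fun g => (χ : G → ℂ) g = 0).card = p * (p + 2) := by
    have h := Finset.sum_congr (s₁ := Finset.univ) rfl fun g _ => hpt g
    rw [Finset.sum_add_distrib, Finset.sum_add_distrib, Finset.sum_add_distrib, sum_irr_eq_zero hnt,
      ← Finset.mul_sum, sum_sing D hC, Finset.sum_ite_eq', if_pos (Finset.mem_univ _),
      Finset.sum_boole, Finset.sum_const, Finset.card_univ, ← Nat.card_eq_fintype_card, hc,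
      nsmul_eq_mul, ← mul_assoc (2 : ℂ)] at h
    have hi' : (2 : ℂ) * (Nor P).index = (p + 1) * (p + 2) := by exact_mod_cast hi
    rw [hi'] at h
    have : (((Finset.univ.filter fun g => (χ : G → ℂ) g = 0).card : ℕ) : ℂ) = p * (p + 2) := by
      push_cast at h
      linear_combination -h
    exact_mod_cast this
  have hcl : ∀ z, (χ : G → ℂ) z = 0 → Nat.card (Subgroup.centralizer ({z} : Set G)) = p + 1 ∧
      ∀ g, (χ : G → ℂ) g = 0 → IsConj z g := fun z hz => by
    have h1 : z ≠ 1 := fun e => hne (by rw [← hχ1, ← e, hz])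
    have h2 : ¬ p ∣ orderOf z := fun e => one_ne_zero ((hv z e).symm.trans hz)
    have h3 : p + 2 ∣ _ := hθ ▸ IA.dvd_central θ (g := z) (by rw [hr z h2, hz, add_zero])
    have h4 := Nat.Coprime.mul_dvd_of_dvd_of_dvd (by
      rw [Nat.coprime_self_add_right]; exact hodd.coprime_two_right) (IA.dvd_index D hC h1 h2) h3
    have h5 := Nat.le_of_dvd (Nat.pos_of_ne_zero Subgroup.index_ne_zero_of_finite) h4
    have h6 : Finset.univ.filter (IsConj z) ⊆ Finset.univ.filter fun g => (χ : G → ℂ) g = 0 :=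
      fun g hg => by
        rw [Finset.mem_filter] at hg ⊢
        exact ⟨hg.1, (H7.isClassFunction_of_isConj (irr_cls χ) hg.2).symm.trans hz⟩
    have h7 := Finset.eq_of_subset_of_card_le h6 (by rw [hn1, IA.card_class]; exact h5)
    refine ⟨?_, fun g hg => ?_⟩
    · have h8 := (Subgroup.centralizer ({z} : Set G)).card_mul_index
      rw [← IA.card_class, h7, hn1, hc] at h8
      refine Nat.eq_of_mul_eq_mul_right (m := p * (p + 2)) (by positivity) ?_
      rw [h8]; ring
    · have : g ∈ Finset.univ.filter (IsConj z) := h7 ▸ Finset.mem_filter.2 ⟨Finset.mem_univ _, hg⟩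
      exact (Finset.mem_filter.1 this).2
  have h2p : 2 ∣ p + 1 := hodd.add_one.two_dvd
  have hexp : ∀ z : G, orderOf z = 2 → ∀ y, y * z = z * y → y * y = 1 := fun z hz y hy => by
    obtain ⟨h1, h2⟩ := hcl z (v1 z 2 Nat.prime_two (hz ▸ dvd_rfl) h2p)
    by_cases hy1 : y = 1
    · rw [hy1, one_mul]
    obtain ⟨q, hq, hd⟩ := Nat.exists_prime_and_dvd (mt orderOf_eq_one_iff.1 hy1)
    obtain ⟨c, hc⟩ := isConj_iff.1 (h2 y (v1 y q hq hd (hd.trans (h1 ▸
      Subgroup.orderOf_dvd_natCard _ (Subgroup.mem_centralizer_singleton_iff.2 hy)))))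
    have hz2 : z * z = 1 := by rw [← sq, ← hz, pow_orderOf_eq_one]
    rw [← hc, conj_mul, hz2, mul_one, mul_inv_cancel]
  have hG2 : 2 ∣ Nat.card G := hc ▸ (h2p.mul_right _).mul_left _
  obtain ⟨z, hz⟩ := exists_prime_orderOf_dvd_card' 2 hG2
  have hpg : IsPGroup 2 (Subgroup.centralizer ({z} : Set G)) := fun y =>
    ⟨1, Subtype.ext (by
      rw [pow_one, sq]
      exact hexp z hz y (Subgroup.mem_centralizer_singleton_iff.1 y.2))⟩
  obtain ⟨k, hk⟩ := IsPGroup.iff_card.1 hpg
  rw [(hcl z (v1 z 2 Nat.prime_two (hz ▸ dvd_rfl) h2p)).1] at hk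
  obtain ⟨T⟩ := (inferInstance : Nonempty (Sylow 2 G))
  obtain ⟨F, _, _, hF, ⟨hf⟩⟩ := sl2_of_exp T (H36.not_isCyclic_sylow_two hG hG2 T)
    (not_normal_sylow hG hG2 T) hexp
  have h3 : ¬ 2 ∣ p * (p + 2) := by
    rw [← even_iff_two_dvd, Nat.not_even_iff_odd]
    exact hodd.mul (hodd.add_even even_two)
  have hF' : Fintype.card F = 2 ^ k := by
    rw [hF, T.card_eq_multiplicity, hc, show p * ((p + 1) * (p + 2)) = (p + 1) * (p * (p + 2)) by ring,
      hk, Nat.factorization_mul (by positivity)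
      (show p * (p + 2) ≠ 0 from fun h4 => h3 (h4 ▸ dvd_zero 2)), Finsupp.add_apply,
      Nat.factorization_eq_zero_of_not_dvd h3, Nat.prime_two.factorization_pow,
      Finsupp.single_eq_same, add_zero]
  have h2F : (2 : F) = 0 := by
    have := FiniteField.cast_card_eq_zero F
    rw [hF'] at this
    push_cast at this
    exact pow_eq_zero_iff (fun e => by rw [e, pow_zero] at this; exact one_ne_zero this) |>.1 this
  exact ⟨⟨k, hk⟩, F, inferInstance, inferInstance, hF'.trans hk.symm,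
    ⟨hf.trans (H64.SL2.projEquiv h2F)⟩⟩

end NPS
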