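import Mathlib
import Cfsg.Agent.Lib.NPS.Defs
import Cfsg.Agent.Lib.Char.Burnside

/-! See `blueprint/NPS/README.md`. -/

set_option autoImplicit false
set_option linter.unusedSectionVars false
set_option linter.unusedVariables false
set_option linter.style.haveILetI false

open Cfsg H17.Ord H84 MulAction
open H86 (Cen Nor)
open scoped Pointwise ComplexConjugate

namespace NPS

variable {G : Type*} [Group G] [Finite G] {p : ℕ} [hp : Fact p.Prime] {P : Subgroup G}
  {e t A B a c r : ℕ}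

private theorem IntP_sum_orbit {H Ω : Type*} [Group H] [MulAction H Ω] (F : Ω → ℂ) (hF : ∀ (h : H) x, F (h • x) = F x)
    (hI : ∀ x, IsIntegral ℤ (((stabilizer H x).index : ℂ) * F x)) (S : Finset Ω)
    (hS : ∀ h : H, ∀ x ∈ S, h • x ∈ S) : IsIntegral ℤ (∑ x ∈ S, F x) := by
  classical
  induction S using Finset.strongInduction with
  | H S ih =>
    rcases S.eq_empty_or_nonempty with rfl | ⟨k, hk⟩
    · simpa using isIntegral_zero
    rw [← Finset.sum_filter_add_sum_filter_not S (· ∈ orbit H k)]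
    refine IsIntegral.add ?_ (ih _ (Finset.filter_ssubset.2 ⟨k, hk, not_not.2 (mem_orbit_self k)⟩) ?_)
    · have h1 : ((S.filter (· ∈ orbit H k) : Finset Ω) : Set Ω) = orbit H k := by
        ext x
        simp only [Finset.coe_filter, Set.mem_setOf_eq, and_iff_right_iff_imp]
        rintro ⟨h, rfl⟩
        exact hS h k hk
      rw [Finset.sum_congr rfl (g := fun _ => F k) (by
        intro x hx
        obtain ⟨h, rfl⟩ := (Finset.mem_filter.1 hx).2
        exact hF h k), Finset.sum_const, nsmul_eq_mul, ← Set.ncard_coe_finset, h1, ← index_stabilizer]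
      exact hI k
    · intro h x hx
      rw [Finset.mem_filter] at hx ⊢
      exact ⟨hS h x hx.1, fun e => hx.2 (by simpa using mem_orbit_of_mem_orbit h⁻¹ e)⟩

private theorem IntP_cast (n : ℕ) : IsIntegral ℤ (n : ℂ) := by
  simpa using isIntegral_algebraMap (R := ℤ) (A := ℂ) (x := (n : ℤ))

theorem int_avg (χ : IrrCharacter G) {N Z : Subgroup G} {y : G} (hZ : Z ≤ N) (hy : y ∈ N)
    (hinv : ∀ n ∈ N, ∀ z ∈ Z, y⁻¹ * (n * (y * z) * n⁻¹) ∈ Z) :
    IsIntegral ℤ ((N.index : ℂ) * (Nat.card Z * avg Z y χ) / dg χ) := by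
  classical
  haveI := Fintype.ofFinite Z
  have h := @IntP_sum_orbit N G _ (MulAction.compHom G ((MulAut.conj : G →* MulAut G).comp N.subtype))
    (fun g => (N.index : ℂ) * (χ : G → ℂ) g / dg χ) (fun n x => by
      change (N.index : ℂ) * (χ : G → ℂ) (n * x * (n : G)⁻¹) / dg χ = _
      rw [irr_cls χ]) (fun x => by
      have e : @stabilizer N G _ (MulAction.compHom G ((MulAut.conj : G →* MulAut G).comp N.subtype)) x =
          (Subgroup.centralizer {x}).subgroupOf N := by
        ext n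
        change (n : G) * x * (n : G)⁻¹ = x ↔ _
        rw [Subgroup.mem_subgroupOf, Subgroup.mem_centralizer_singleton_iff, mul_inv_eq_iff_eq_mul]
      have e2 : ((Subgroup.centralizer {x}).subgroupOf N).index * N.index =
          N.relIndex (Subgroup.centralizer {x}) * (Subgroup.centralizer {x}).index := by
        rw [← Subgroup.inf_relIndex_right N, Subgroup.relIndex_mul_index inf_le_right,
          ← Subgroup.relIndex_mul_index (inf_le_left : N ⊓ Subgroup.centralizer {x} ≤ N),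
          Subgroup.inf_relIndex_left]
        rfl
      have e3 := (IntP_cast (N.relIndex (Subgroup.centralizer {x}))).mul (isIntegral_centralChar χ x)
      rw [centralChar, dg_cast, ← mul_div_assoc, ← mul_assoc, ← Nat.cast_mul, ← e2] at e3
      rw [e]
      beta_reduce
      rwa [← mul_div_assoc, ← mul_assoc, ← Nat.cast_mul]) (Finset.univ.image fun z : Z => y * z) (by
      intro n x hx
      obtain ⟨z, -, rfl⟩ := Finset.mem_image.1 hx
      exact Finset.mem_image.2 ⟨⟨_, hinv n n.2 z z.2⟩, Finset.mem_univ _, mul_inv_cancel_left _ _⟩)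
  rw [Finset.sum_image fun a _ b _ e => Subtype.ext (mul_left_cancel e)] at h
  rwa [card_mul_avg, Finset.mul_sum, Finset.sum_div]

theorem integral_of_coprime {x : ℂ} {f l : ℕ} (hx : IsIntegral ℤ x) (hf : f ≠ 0) (hc : f.Coprime l)
    (h : IsIntegral ℤ (l * x / f)) : IsIntegral ℤ (x / f) := by
  obtain ⟨u, v, e⟩ := Nat.isCoprime_iff_coprime.2 hc
  have e' : (u : ℂ) * f + v * l = 1 := by exact_mod_cast e
  have hf' : (f : ℂ) ≠ 0 := Nat.cast_ne_zero.2 hf
  have : x / f = u * x + v * (l * x / f) := by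
    field_simp
    linear_combination (-x) * e'
  rw [this]
  have hi : ∀ z : ℤ, IsIntegral ℤ (z : ℂ) := fun z => isIntegral_algebraMap (x := z)
  exact ((hi u).mul hx).add ((hi v).mul h)

theorem val_avg (D : PB G p P e) (hC : Cen P = P) {y : G} (hy : y ∈ Nor P) (hyP : y ∉ P)
    (χ : IrrCharacter G) : avg P y χ = (χ : G → ℂ) y := by
  refine avg_of_fpf hy (fun k hk e => by_contra fun h1 => hyP (hC.le ?_)) (irr_cls χ)
  change y ∈ Subgroup.centralizer (P : Set G)
  rw [← H4.centralizer_eq_of_card hp.out D.card hk h1, Subgroup.mem_centralizer_singleton_iff]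
  exact e.symm

theorem val_zero (D : PB G p P e) (hC : Cen P = P) {y : G} (hy : y ∈ Nor P) (hyP : y ∉ P)
    {χ : IrrCharacter G} (h : fd P χ = 0) : (χ : G → ℂ) y = 0 := by
  rw [← val_avg D hC hy hyP χ]
  exact avg_eq_zero hy (irr_chr χ) h

theorem dvd_val (D : PB G p P e) (hC : Cen P = P) {y : G} (hy : y ∈ Nor P) (hyP : y ∉ P)
    {χ : IrrCharacter G} {f k l : ℕ} (hd : dg χ = f * k) (hi : (Nor P).index = k * l)
    (hc : f.Coprime (p * l)) : ∃ s : ℂ, IsIntegral ℤ s ∧ (χ : G → ℂ) y = f * s := by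
  have h1 := int_avg χ (N := Nor P) (Z := P) Subgroup.le_normalizer hy fun n hn z hz => by
    have := mul_mem (hC.le (commutator_mem_Cen D.card D.ind (inv_mem hy) hn))
      ((Subgroup.mem_normalizer_iff.1 hn z).1 hz)
    convert this using 1
    rw [commutatorElement_def]; group
  have h0 := (dg_pos χ).ne'
  rw [hd, mul_ne_zero_iff] at h0
  have hf : (f : ℂ) ≠ 0 := Nat.cast_ne_zero.2 h0.1
  have hk : (k : ℂ) ≠ 0 := Nat.cast_ne_zero.2 h0.2
  rw [val_avg D hC hy hyP χ, hd, hi, D.card] at h1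
  refine ⟨_, integral_of_coprime (H6.char_isIntegral (irr_chr χ) y) h0.1 hc ?_, (mul_div_cancel₀ _ hf).symm⟩
  convert h1 using 1
  push_cast; field_simp

theorem zero_or_norm (D : PB G p P e) (hC : Cen P = P) {y : G} (hy : y ∈ Nor P) (hyP : y ∉ P)
    {χ : IrrCharacter G} {s : ℂ} (hs : IsIntegral ℤ s) (h : (χ : G → ℂ) y = fd P χ * s) :
    (χ : G → ℂ) y = 0 ∨ ‖(χ : G → ℂ) y‖ = fd P χ := by
  by_cases h0 : fd P χ = 0
  · exact Or.inl (val_zero D hC hy hyP h0)
  obtain ⟨n, ρ, hρ⟩ := isCharacter_avg (K := P) (H := Nor P) le_rfl (irr_chr χ)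
  have h1 : ρ.character ⟨y, hy⟩ = (χ : G → ℂ) y := by rw [hρ]; exact val_avg D hC hy hyP χ
  have h2 : Module.finrank ℂ (Fin n → ℂ) = fd P χ := by
    have := Representation.char_one ρ
    rw [hρ] at this
    exact_mod_cast this.symm.trans (fd_cast P (irr_chr χ)).symm
  have := H8.character_eq_zero_or_norm_eq_of_isIntegral ρ ⟨y, hy⟩ (by
    rwa [h1, h2, h, mul_div_cancel_left₀ _ (Nat.cast_ne_zero.2 h0)])
  rwa [h1, h2] at this

theorem dvd_fd (χ : IrrCharacter G) {N Z : Subgroup G} (hZ : Z ≤ N)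
    (hN : N ≤ Subgroup.normalizer (Z : Set G)) {f k l : ℕ} (hd : dg χ = f * k) (hi : N.index = k * l)
    (hc : f.Coprime (Nat.card Z * l)) : f ∣ fd Z χ := by
  have h1 := int_avg χ hZ (one_mem N) fun n hn z hz => by
    simpa using (Subgroup.mem_normalizer_iff.1 (hN hn) z).1 hz
  have h0 := (dg_pos χ).ne'
  rw [hd, mul_ne_zero_iff] at h0
  have hf : (f : ℂ) ≠ 0 := Nat.cast_ne_zero.2 h0.1
  have hk : (k : ℂ) ≠ 0 := Nat.cast_ne_zero.2 h0.2
  rw [← fd_cast Z (irr_chr χ), hd, hi] at h1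
  refine H8.dvd_of_isIntegral_div (Nat.pos_of_ne_zero h0.1) (integral_of_coprime (IntP_cast _) h0.1 hc ?_)
  convert h1 using 1
  push_cast; field_simp

theorem nt1 {w s : ℂ} {n b f : ℕ} (hn : 0 < n) (hw : w ^ n = 1) (hs : IsIntegral ℤ s)
    (h : b * w = 1 + f * s) (hlt : b + 1 < f) : b = 1 ∧ w = 1 := by
  have nw : ∀ σ : ℂ ≃+* ℂ, ‖σ w‖ = 1 := fun σ =>
    Complex.norm_eq_one_of_pow_eq_one (by rw [← map_pow, hw, map_one]) hn.ne'
  by_cases h0 : s = 0
  · rw [h0, mul_zero, add_zero] at h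
    have h1 := congrArg norm h
    rw [norm_mul, show ‖w‖ = 1 from nw (RingEquiv.refl ℂ), mul_one, norm_one, Complex.norm_natCast] at h1
    have h2 : b = 1 := by exact_mod_cast h1
    exact ⟨h2, by simpa [h2] using h⟩
  have key : ∀ σ : ℂ ≃+* ℂ, ‖σ s‖ < 1 := fun σ => by
    have h1 : (f : ℂ) * σ s = b * σ w - 1 := by
      have := congrArg σ h
      simp only [map_mul, map_natCast, map_add, map_one] at this
      rw [this]; ring
    have h2 := norm_sub_le ((b : ℂ) * σ w) 1
    rw [← h1, norm_mul, norm_mul, nw, norm_one, Complex.norm_natCast, Complex.norm_natCast] at h2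
    have h3 : (b : ℝ) + 1 < f := by exact_mod_cast hlt
    have h4 : (0 : ℝ) ≤ b := Nat.cast_nonneg b
    nlinarith
  exact absurd (H8.norm_eq_one_of_forall_ringEquiv hs h0 fun σ => (key σ).le) (key (RingEquiv.refl ℂ)).ne

theorem nt2 {s : ℂ} {f : ℕ} (hs : IsIntegral ℤ s) (h : 1 + f * s = 0) : f = 1 := by
  have h0 : f ≠ 0 := by rintro rfl; simp at h
  have hf : (f : ℂ) ≠ 0 := Nat.cast_ne_zero.2 h0
  refine Nat.dvd_one.1 (H8.dvd_of_isIntegral_div (Nat.pos_of_ne_zero h0) ?_)
  convert hs.neg using 1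
  field_simp
  push_cast
  linear_combination h

end NPS
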