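import Mathlib
import Cfsg.Agent.Lib.NPS.Num

/-! See `blueprint/NPS/README.md`. -/

set_option autoImplicit false
set_option linter.unusedSectionVars false
set_option linter.unusedVariables false
set_option linter.style.haveILetI false

open Cfsg H17.Ord H84 MulAction
open H86 (Cen Nor)
open scoped Pointwise ComplexConjugate

namespace NPS

namespace Nu2

theorem ints {p A B a c r : ℕ} (h : Par p A B a c r) :
    (p : ℤ) = A * B + 1 ∧ (a : ℤ) = A * B + 1 - B ∧ (c : ℤ) = A * B + 1 + A ∧ (r : ℤ) = A * B + A - B ∧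
      (2 : ℤ) ≤ A ∧ (A : ℤ) ≤ B ∧ (p : ℤ) ≠ 0 ∧ ((p - 1 : ℕ) : ℤ) = A * B := by
  have h1 := h.mul; have h2 := h.ha; have h3 := h.hc; have h4 := h.hr; have h5 := h.two; have h6 := h.le
  have h7 : p - 1 = A * B := by omega
  have h8 : p ≠ 0 := by omega
  rw [h7]
  zify at h1 h2 h3 h4 h5 h6 h8
  exact ⟨by linarith, by linarith, by linarith, by linarith, h5, h6, h8, by push_cast; rfl⟩

end Nu2

namespace Par
open Nu2

variable {p A B a c r t e d nA nM nz nB nN : ℕ} (h : Par p A B a c r)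

include h

theorem no1 (h1 : 1 + nM + nB + nN = p)
    (h2 : 1 + nM * (a * c) = nB * (B * c) + nN * ((p - 1) * (a * c))) : False := by
  obtain ⟨ep, ea, ec, er, A2, AB, p0, e1⟩ := ints h
  zify at h1 h2
  rw [e1, ea, ec] at h2
  have k : (1 : ℤ) + nM * r = nB * (B + 1) + nN * (1 + r * (A * B)) := by
    refine mul_left_cancel₀ p0 ?_
    rw [ep] at h1 ⊢
    rw [er]
    linear_combination h2 - h1
  have r0 : (0 : ℤ) < r := by rw [er]; nlinarith
  have b0 : (0 : ℤ) ≤ nB := by positivity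
  have m0 : (0 : ℤ) ≤ nM := by positivity
  rcases Nat.eq_zero_or_pos nN with rfl | hN
  · have k2 : ((nB : ℤ) - nM * (A - 1)) * (A * (B + 1) + 1) = A * (B + 1) := by
      rw [ep] at h1
      rw [er] at k
      push_cast at h1 k
      linear_combination h1 - A * k
    have q0 : (0 : ℤ) < A * (B + 1) := by nlinarith
    generalize (nB : ℤ) - nM * (A - 1) = i at k2
    generalize (A : ℤ) * (B + 1) = Q at k2 q0
    rcases le_or_gt i 0 with hi | hi <;> nlinarith
  · have hN' : (1 : ℤ) ≤ nN := by exact_mod_cast hN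
    have q0 : (0 : ℤ) < A * B := by nlinarith
    have u1 : (nM : ℤ) + 1 ≤ A * B := by linarith
    have u2 : (nM + 1 : ℤ) * r ≤ A * B * r := mul_le_mul_of_nonneg_right u1 r0.le
    have u3 : (0 : ℤ) ≤ nB * (B + 1) := by positivity
    have u4 : 1 * (1 + r * (A * B)) ≤ (nN : ℤ) * (1 + r * (A * B)) :=
      mul_le_mul_of_nonneg_right hN' (by positivity)
    nlinarith

theorem no2 (ht : t * e + 1 = p) (h1 : 1 + nM + nB = e) (hd : t * d = B * c)
    (h2 : d + nB * (B * c) = 1 + nM * (a * c)) : False := by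
  obtain ⟨b, hb⟩ : t ∣ B := h.dvd_B ⟨e, by omega⟩ ⟨d, hd.symm⟩
  obtain ⟨ep, ea, ec, er, A2, AB, p0, e1⟩ := ints h
  zify at ht h1 hd h2 hb
  have t0 : (t : ℤ) ≠ 0 := by rintro t0; rw [t0] at hb; linarith
  have e2 : (e : ℤ) = A * b := mul_left_cancel₀ t0 (by linear_combination ht + ep + A * hb)
  have d2 : (d : ℤ) = b * c := mul_left_cancel₀ t0 (by linear_combination hd + c * hb)
  rw [d2, ea, ec] at h2
  have k : (b : ℤ) + nB * (B + 1) = nM * (A * B + A - B) := by
    refine mul_left_cancel₀ p0 ?_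
    rw [ep]
    linear_combination h2 + h1 + e2
  have k2 : ((nB : ℤ) - nM * (A - 1)) * (A * (B + 1) + 1) = -1 := by
    linear_combination h1 + e2 + A * k
  have q0 : (0 : ℤ) < A * (B + 1) := by nlinarith
  generalize (nB : ℤ) - nM * (A - 1) = i at k2
  generalize (A : ℤ) * (B + 1) = Q at k2 q0
  rcases le_or_gt 0 i with hi | hi <;> nlinarith

theorem no3 (h1 : 1 + nM + nz + nB + nA = e) (hA : nA = 0 ∨ nM = 0)
    (h2 : e * (a * c) + nz * (p - 1) + nB * (B * c) = 1 + nA * (A * a) + nM * (a * c)) : False := by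
  have u1 : A * a ≤ a * c := by
    rw [mul_comm A]; exact Nat.mul_le_mul_left a (by have := h.hc; omega)
  have u2 : 1 < a * c := by
    have := h.big; have := h.five_le
    have : 5 * (5 - 1) ≤ p * (p - 1) := Nat.mul_le_mul (by omega) (by omega)
    omega
  have u3 : nA * (A * a) ≤ nA * (a * c) := Nat.mul_le_mul_left _ u1
  have u4 : (1 + nM + nA) * (a * c) ≤ e * (a * c) := Nat.mul_le_mul_right _ (by omega)
  rw [add_mul, add_mul] at u4
  omega

theorem no4 (ht : t * e + 1 = p) (h1 : 1 + nM + nB = e) (hd : t * d = a * c) (hB : nB ≠ 0 → t ∣ A)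
    (h2 : d + 1 + nM * (a * c) = nB * (B * c)) : False := by
  obtain ⟨g, hg⟩ : t ∣ A := hB (by rintro rfl; omega)
  obtain ⟨ep, ea, ec, er, A2, AB, p0, e1⟩ := ints h
  have t1 : 0 < t := Nat.pos_of_ne_zero (by rintro rfl; have := h.two; omega)
  have g1 : 0 < g := Nat.pos_of_ne_zero (by rintro rfl; have := h.two; omega)
  zify at ht h1 hd h2 hg t1 g1
  have t0 : (t : ℤ) ≠ 0 := t1.ne'
  have e2 : (e : ℤ) = g * B := mul_left_cancel₀ t0 (by linear_combination ht + ep + B * hg)
  rw [ea, ec] at h2 hd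
  obtain ⟨i, hi⟩ : ∃ i : ℤ, i = nB - nM * (A - 1) := ⟨_, rfl⟩
  have k1 : (t : ℤ) * nM + 2 = (t * i - A + 1) * (B + 1) := by
    refine mul_left_cancel₀ p0 ?_
    rw [ep, hi]
    linear_combination t * h2 - t * h1 - hd - ht - ep
  have k2 : (A : ℤ) * nM + i = g * B - 1 := by linear_combination h1 + e2 + hi
  have m0 : (0 : ℤ) ≤ nM := by positivity
  have m1 : (0 : ℤ) ≤ t * nM := by positivity
  have j0 : 0 < t * i - A + 1 := by
    by_contra hj
    have : (t * i - A + 1) * (B + 1) ≤ 0 := mul_nonpos_of_nonpos_of_nonneg (not_lt.1 hj) (by linarith)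
    linarith
  have i0 : 0 < i := by
    by_contra hj
    have : t * i ≤ 0 := mul_nonpos_of_nonneg_of_nonpos t1.le (not_lt.1 hj)
    linarith
  have k3 : (t : ℤ) * nM < B := by
    refine lt_of_mul_lt_mul_left (a := (g : ℤ)) ?_ g1.le
    have : (g : ℤ) * (t * nM) = A * nM := by rw [hg]; ring
    linarith
  have j1 : t * i - A + 1 = 1 := by
    by_contra hj
    have : 2 * ((B : ℤ) + 1) ≤ (t * i - A + 1) * (B + 1) :=
      mul_le_mul_of_nonneg_right (by omega) (by linarith)
    linarith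
  have i1 : i = g := mul_left_cancel₀ t0 (by linear_combination j1 + hg)
  rw [j1] at k1
  have : (0 : ℤ) = 1 := by linear_combination g * k1 - k2 + i1 + nM * hg
  omega

theorem t1num (h1 : nA + nB + 2 = p) (h2 : 1 + nA * (A * a) + a * c = nB * (B * c))
    (h3 : nB * (B * (B * c)) + (r + 1) * (a * c) ≤ (p - 1) * (a * c)) : False := by
  obtain ⟨ep, ea, ec, er, A2, AB, p0, e1⟩ := ints h
  zify at h1 h2 h3
  rw [e1] at h3
  have c0 : (0 : ℤ) < c := by rw [ec]; nlinarith
  have a0 : (0 : ℤ) < a := by rw [ea]; nlinarith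
  have k3 : (nB : ℤ) * B ^ 2 ≤ (B - A - 1) * a := by
    refine le_of_mul_le_mul_right ?_ c0
    rw [er] at h3
    linear_combination h3
  have k1 : (nB : ℤ) * (A + B) = A ^ 2 * B - B + 2 := by
    refine mul_left_cancel₀ p0 ?_
    rw [ea, ec] at h2
    rw [ep] at h1 ⊢
    linear_combination (A * (A * B + 1 - B)) * h1 - h2
  have k4 : ((A : ℤ) ^ 2 * B - B + 2) * B ^ 2 ≤ (A + B) * (B - A - 1) * a := by
    rw [← k1]
    have := mul_le_mul_of_nonneg_left k3 (show (0 : ℤ) ≤ A + B by linarith)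
    linear_combination this
  have k5 : ((A : ℤ) + B) * (B - A - 1) * a ≤ B ^ 2 * a :=
    mul_le_mul_of_nonneg_right (by nlinarith) a0.le
  have k6 : (A : ℤ) ^ 2 * B - B + 2 ≤ a :=
    le_of_mul_le_mul_right (a := (B : ℤ) ^ 2) (by linarith) (by have : (0 : ℤ) < B := by linarith
                                                                positivity)
  rw [ea] at k6
  have : (0 : ℤ) ≤ (A - 1) * (A * B) := mul_nonneg (by linarith) (by positivity)
  nlinarith

theorem t2num (hpar : 2 ∣ a * c) (h1 : 1 + nA + nz + nB = B) (hA : nA ≠ 0 → A ∣ B)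
    (h2 : a + 1 + nA * (A * a) = nz * (p - 1) + nB * (B * c)) : False := by
  have k : nA * A + 2 = B * (1 + nB) := by
    obtain ⟨ep, ea, ec, er, A2, AB, p0, e1⟩ := ints h
    zify at h1 h2 ⊢
    rw [e1, ea, ec] at h2
    refine mul_left_cancel₀ p0 ?_
    rw [ep]
    linear_combination h2 + (A * B) * h1
  have A2 := h.two
  have AB := h.le
  have k2 : A = 2 ∧ 2 ∣ B := by
    by_cases h0 : nA = 0
    · subst h0
      have : B ≤ 2 := Nat.le_of_dvd two_pos ⟨1 + nB, by omega⟩
      omega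
    · have u := hA h0
      have : A ∣ 2 := (Nat.dvd_add_right (Dvd.intro_left nA rfl)).1 (k ▸ u.mul_right _)
      have : A = 2 := le_antisymm (Nat.le_of_dvd two_pos this) A2
      exact ⟨this, this ▸ u⟩
  obtain ⟨rfl, u⟩ := k2
  have h1 := h.mul; have h2 := h.ha; have h3 := h.hc
  rcases (Nat.prime_two.dvd_mul).1 hpar with v | v <;> omega

theorem t3num {m : ℕ} (ht : t * e + 1 = p) (h2 : 2 ≤ t) (hm : t * m = r + 1) (hme : m < e)
    (hd : t * m ∣ p * (a * c)) : False := by
  have u1 : t * m < t * e := Nat.mul_lt_mul_of_pos_left hme (by omega)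
  rw [hm] at hd u1
  have u2 : (r + 1).Coprime p :=
    (Nat.coprime_of_lt_prime (by omega) (by omega) h.prime).symm
  have u3 : r + 1 ∣ t * e := by
    have v := u2.dvd_of_dvd_mul_left hd
    rw [h.M_eq] at v
    refine (Nat.dvd_add_right v).1 ⟨p, ?_⟩
    rw [add_mul]; omega
  obtain ⟨k, hk⟩ := u3
  have k2 : 2 ≤ k := by
    rcases k with _ | _ | k <;> omega
  have u4 : (r + 1) * 2 ≤ (r + 1) * k := Nat.mul_le_mul_left _ k2
  have u5 : 2 * B ≤ A * B := Nat.mul_le_mul_right _ h.two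
  have h1 := h.mul; have h4 := h.hr
  omega

theorem t4num (hpar : 2 ∣ a * c) (h1 : 1 + nA + nz + nB = A) (hB : nB ≠ 0 → B ∣ A)
    (hz : nz ≠ 0 → B ∣ a * c) (h2 : c + nz * (p - 1) + nB * (B * c) = 1 + nA * (A * a)) :
    nA = 1 ∧ nB = 0 ∧ nz + 2 = A ∧ (A = 2 ∨ B = A + 1) := by
  have k : nA * A = nB * B + A := by
    obtain ⟨ep, ea, ec, er, A2, AB, p0, e1⟩ := ints h
    zify at h1 h2 ⊢
    rw [e1, ea, ec] at h2
    refine mul_left_cancel₀ p0 ?_
    rw [ep]
    linear_combination (A * B) * h1 - h2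
  have A2 := h.two
  have AB := h.le
  have e1 := h.mul; have e2 := h.ha; have e3 := h.hc
  have b0 : nB = 0 := by
    by_contra h0
    obtain rfl : A = B := le_antisymm AB (Nat.le_of_dvd (by omega) (hB h0))
    have v := Nat.even_mul_succ_self A
    rw [mul_add, mul_one, even_iff_two_dvd] at v
    rcases (Nat.prime_two.dvd_mul).1 hpar with w | w <;> omega
  subst b0
  have a1 : nA = 1 := Nat.eq_of_mul_eq_mul_right (show 0 < A by omega) (by omega)
  refine ⟨a1, rfl, by omega, ?_⟩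
  by_cases h0 : nz = 0
  · left; omega
  · right
    have v : B ∣ c := h.cop_aB.symm.dvd_of_dvd_mul_left (hz h0)
    have w : B ∣ A + 1 := (Nat.dvd_add_right (Dvd.intro_left A rfl)).1 (by
      rwa [show A * B + (A + 1) = c by omega])
    have w1 := Nat.le_of_dvd (by omega) w
    by_contra w2
    obtain rfl : A = B := by omega
    have := Nat.le_of_dvd one_pos ((Nat.dvd_add_right dvd_rfl).1 w)
    omega

end Par

end NPS
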