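import Mathlib
import Cfsg.Agent.Lib.NPS.Int

/-! See `blueprint/NPS/README.md`. -/

set_option autoImplicit false
set_option linter.unusedSectionVars false
set_option linter.unusedVariables false
set_option linter.style.haveILetI false

open Cfsg H17.Ord H84 MulAction
open H86 (Cen Nor)
open scoped Pointwise ComplexConjugate

namespace NPS

variable {G : Type*} [Group G] [Finite G] {p : ℕ} [hp : Fact p.Prime] {P : Subgroup G}
  {e t A B a c r : ℕ}

namespace Scal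

theorem exists_syl (D : PB G p P e) : ∃ Q : Sylow p G, (Q : Subgroup G) = P :=
  ⟨(IsPGroup.of_card (n := 1) (by rw [D.card, pow_one])).toSylow D.ind, rfl⟩

theorem sing_mem (D : PB G p P e) (hC : Cen P = P) {y : G} (hy : y ∈ Nor P)
    (hs : p ∣ orderOf y) : y ∈ P := by
  obtain ⟨Q, rfl⟩ := exists_syl D
  exact (scs_of D.card D.ind hC).mem_of_sing hs (smul_eq_iff_Nor.2 hy)

theorem nor_of_conj (D : PB G p P e) (hC : Cen P = P) {x g : G} (hx : x ∈ P) (h1 : x ≠ 1)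
    (h : g⁻¹ * x * g ∈ Nor P) : g ∈ Nor P := by
  have hs : p ∣ orderOf (g⁻¹ * x * g) := by
    have := (MulAut.conj g⁻¹).orderOf_eq x
    rw [MulAut.conj_apply, inv_inv] at this
    rw [this]
    exact PB_sing D hx h1
  have h2 := sing_mem D hC h hs
  obtain ⟨Q, rfl⟩ := exists_syl D
  exact smul_eq_iff_Nor.1 ((scs_of D.card D.ind hC).eq_of_mem h1 (mem_smul_sylow.2 h2) hx)

theorem inner_avg {N : Subgroup G} [Fintype N] (hPN : P ≤ N) (ν : N → ℂ)
    (hν : ∀ n : N, ∀ k : P, ν (n * ⟨k, hPN k.2⟩) = ν n) (ψ : G → ℂ) :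
    classInner ν (fun n : N => ψ n) = classInner ν (fun n : N => avg P n ψ) := by
  haveI := Fintype.ofFinite P
  rw [H7.classInner_def, H7.classInner_def]
  congr 1
  apply mul_left_cancel₀ (H7.card_ne_zero' P)
  have h1 : ∀ n : N, (Nat.card P : ℂ) * (ν n * conj (avg P n ψ)) =
      ∑ k : P, ν (n * ⟨k, hPN k.2⟩) * conj (ψ (n * ⟨k, hPN k.2⟩ : N)) := fun n => by
    rw [mul_left_comm, ← Complex.conj_natCast, ← map_mul, card_mul_avg, map_sum, Finset.mul_sum]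
    exact Finset.sum_congr rfl fun k _ => by rw [hν]; rfl
  have h2 : ∀ k : P, ∑ n : N, ν (n * ⟨k, hPN k.2⟩) * conj (ψ (n * ⟨k, hPN k.2⟩ : N)) =
      ∑ n : N, ν n * conj (ψ n) := fun k =>
    Equiv.sum_comp (Equiv.mulRight (⟨k, hPN k.2⟩ : N)) fun n : N => ν n * conj (ψ n)
  rw [Finset.mul_sum (f := fun n : N => ν n * conj (avg P n ψ)), Finset.sum_congr rfl fun n _ => h1 n,
    Finset.sum_comm, Finset.sum_congr rfl fun (k : P) _ => h2 k,
    Finset.sum_const, Finset.card_univ, nsmul_eq_mul, Nat.card_eq_fintype_card]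

theorem exists_hom {H : Type*} [Group H] {φ : H → ℂ} (h0 : φ 1 ≠ 0)
    (h : ∀ n, ∃ c : ℂ, ∀ x, φ (n * x) = c * φ x) : ∃ ν : H →* ℂ, ∀ n, φ n = φ 1 * ν n := by
  refine ⟨⟨⟨fun n => φ n / φ 1, div_self h0⟩, fun a b => ?_⟩, fun n => ?_⟩
  · obtain ⟨c, hc⟩ := h a
    have := hc 1
    rw [mul_one] at this
    show φ (a * b) / φ 1 = φ a / φ 1 * (φ b / φ 1)
    rw [hc, this]; field_simp
  · show φ n = φ 1 * (φ n / φ 1)
    field_simp

end Scal

theorem scal (D : PB G p P e) (hC : Cen P = P) {y : G} (hy : y ∈ Nor P) (hyP : y ∉ P)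
    (hgen : ∀ n ∈ Nor P, ∃ k : ℕ, (y ^ k)⁻¹ * n ∈ P) (χ : IrrCharacter G) (hf : fd P χ ≠ 0)
    (h : ‖(χ : G → ℂ) y‖ = fd P χ) : ∃ m : IrrCharacter G → ℕ,
      ∑ ψ, m ψ * dg ψ = (Nor P).index ∧
      (∀ x ∈ P, x ≠ 1 → ∑ ψ : IrrCharacter G, (m ψ : ℂ) * (ψ : G → ℂ) x = 1) ∧
      m χ = fd P χ ∧ (∀ ψ, m ψ ≤ fd P ψ) ∧
      (∀ ψ ψ' : IrrCharacter G, (∀ g, ¬ p ∣ orderOf g → (ψ : G → ℂ) g = (ψ' : G → ℂ) g) →
        fd P ψ = fd P ψ' → m ψ = m ψ') ∧
      ((χ : G → ℂ) y / fd P χ) ^ orderOf y = 1 := by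
  classical
  haveI := Fintype.ofFinite G
  haveI := Fintype.ofFinite (Nor P)
  have hPN : P ≤ Nor P := Subgroup.le_normalizer
  let Ψ : IrrCharacter G → Nor P → ℂ := fun ψ n => avg P n ψ
  have hΨ : ∀ ψ, IsCharacter (Nor P) (Ψ ψ) := fun ψ => isCharacter_avg le_rfl (irr_chr ψ)
  have hΨ1 : ∀ ψ, Ψ ψ 1 = fd P ψ := fun ψ => (fd_cast P (irr_chr ψ)).symm
  have hΨP : ∀ ψ (n : Nor P) (k : P), Ψ ψ (n * ⟨k, hPN k.2⟩) = Ψ ψ n := fun ψ n k =>
    avg_mul_mem P n k.2 _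
  have hΨy : Ψ χ ⟨y, hy⟩ = (χ : G → ℂ) y := val_avg D hC hy hyP χ
  have hf' : (fd P χ : ℂ) ≠ 0 := Nat.cast_ne_zero.2 hf
  obtain ⟨ω, hω⟩ := H6.char_mul_of_norm_eq (hΨ χ) (g := ⟨y, hy⟩)
    (by rw [hΨy, hΨ1, h, Complex.norm_natCast])
  have hpow : ∀ k : ℕ, ∀ x, Ψ χ (⟨y, hy⟩ ^ k * x) = ω ^ k * Ψ χ x := fun k => by
    induction k with
    | zero => intro x; rw [pow_zero, pow_zero, one_mul, one_mul]
    | succ k ih => intro x; rw [pow_succ', mul_assoc, hω, ih, pow_succ', mul_assoc]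
  obtain ⟨ν, hν⟩ := Scal.exists_hom (φ := Ψ χ) (by rw [hΨ1]; exact hf') fun n => by
    obtain ⟨k, hk⟩ := hgen n n.2
    refine ⟨ω ^ k, fun x => ?_⟩
    have hz : (x : G)⁻¹ * ((y ^ k)⁻¹ * n) * (x : G)⁻¹⁻¹ ∈ P :=
      (Subgroup.mem_normalizer_iff.1 (inv_mem x.2) _).1 hk
    rw [← hΨP χ x ⟨_, hz⟩, ← hpow]
    congr 1
    apply Subtype.ext
    simp only [Subgroup.coe_mul, SubmonoidClass.coe_pow]
    group
  rw [hΨ1] at hν
  have hνP : ∀ (n : Nor P) (k : P), ν (n * ⟨k, hPN k.2⟩) = ν n := fun n k =>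
    mul_left_cancel₀ hf' (by rw [← hν, ← hν, hΨP])
  have hc : IsCharacter (Nor P) fun n => ν n := H7.isCharacter_monoidHom ν
  let η : IrrCharacter (Nor P) := ⟨fun n => ν n, H6.isIrrCharacter_of_one_eq_one hc (map_one ν)⟩
  obtain ⟨m, hm⟩ := H6.char_eq_sum_irr (H7.isCharacter_indFun (Nor P) hc)
  have hin : ∀ ψ, (m ψ : ℂ) = classInner (Ψ ψ) η := fun ψ => by
    rw [← inner_of_sum hm, H7.classInner_indFun_left _ _ (irr_cls ψ), Scal.inner_avg hPN _ hνP,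
      H6.char_inner_comm hc (hΨ ψ)]
  refine ⟨m, ?_, fun x hx h1 => ?_, ?_, fun ψ => ?_, fun ψ ψ' h1 h2 => ?_, ?_⟩
  · have := deg_sum hm
    rw [H7.indFun_one, map_one, mul_one] at this
    exact_mod_cast this.symm
  · have e1 := congrFun hm x
    rw [Finset.sum_apply] at e1
    simp only [Pi.smul_apply, smul_eq_mul] at e1
    rw [← e1]
    apply mul_left_cancel₀ (H7.card_ne_zero' (Nor P))
    have e2 : ∀ g : G, extendByZero (Nor P) (fun n => ν n) (g⁻¹ * x * g) =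
        if g ∈ Nor P then 1 else 0 := fun g => by
      split_ifs with hg
      · have hz : g⁻¹ * x * g ∈ P := by
          have := (Subgroup.mem_normalizer_iff.1 (inv_mem hg) _).1 hx
          rwa [inv_inv] at this
        rw [H7.extendByZero_of_mem _ _ (hPN hz)]
        have := hνP 1 ⟨_, hz⟩
        rwa [one_mul, map_one] at this
      · exact H7.extendByZero_of_not_mem _ _ fun e => hg (Scal.nor_of_conj D hC hx h1 e)
    rw [H7.card_mul_indFun, Finset.sum_congr rfl fun g _ => e2 g, Finset.sum_boole, mul_one,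
      Nat.card_eq_fintype_card, Fintype.card_subtype]
  · have e1 : Ψ χ = (fd P χ : ℂ) • (η : Nor P → ℂ) := funext hν
    have := hin χ
    rw [e1, H7.classInner_smul_left, H6.irr_inner_self η.2, mul_one] at this
    exact_mod_cast this
  · obtain ⟨m', hm'⟩ := H6.char_eq_sum_irr (hΨ ψ)
    have e1 : m ψ = m' η := by
      have := hin ψ
      rw [inner_of_sum hm'] at this
      exact_mod_cast this
    have e2 : fd P ψ = ∑ ζ, m' ζ * dg ζ := by
      have := deg_sum hm'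
      rw [hΨ1] at this
      exact_mod_cast this
    rw [e1, e2]
    exact (Nat.le_mul_of_pos_right _ (dg_pos η)).trans
      (Finset.single_le_sum (f := fun ζ => m' ζ * dg ζ) (fun _ _ => Nat.zero_le _) (Finset.mem_univ η))
  · have e1 : Ψ ψ = Ψ ψ' := funext fun n => by
      by_cases hn : (n : G) ∈ P
      · have a1 := hΨP ψ 1 ⟨n, hn⟩
        have a2 := hΨP ψ' 1 ⟨n, hn⟩
        rw [one_mul, hΨ1] at a1 a2
        rw [show Ψ ψ n = _ from a1, show Ψ ψ' n = _ from a2, h2]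
      · show avg P n ψ = avg P n ψ'
        rw [val_avg D hC n.2 hn, val_avg D hC n.2 hn, h1 _ fun hs => hn (Scal.sing_mem D hC n.2 hs)]
    have := hin ψ
    rw [e1, ← hin] at this
    exact_mod_cast this
  · rw [← hΨy, hν, mul_div_cancel_left₀ _ hf', ← map_pow,
      show (⟨y, hy⟩ : Nor P) ^ orderOf y = 1 from Subtype.ext (pow_orderOf_eq_one y), map_one]

end NPS
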