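import Mathlib
import Cfsg.Agent.Lib.NPS.Defs

/-! See `blueprint/NPS/README.md`. -/

set_option autoImplicit false
set_option linter.unusedSectionVars false
set_option linter.unusedVariables false
set_option linter.style.haveILetI false

open Cfsg H17.Ord H84 MulAction
open H86 (Cen Nor)
open scoped Pointwise ComplexConjugate

namespace NPS

variable {G : Type*} [Group G] [Finite G] {p r : ℕ} [hp : Fact p.Prime]

namespace VFa

omit [Finite G] in
theorem mem_smul_sylow' {g x : G} {Q : Sylow p G} :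
    x ∈ ((g • Q : Sylow p G) : Subgroup G) ↔ g⁻¹ * x * g ∈ (Q : Subgroup G) := by
  rw [Sylow.coe_subgroup_smul, Subgroup.mem_pointwise_smul_iff_inv_smul_mem]
  simp

omit [Finite G] in
theorem cen_smul {Q : Sylow p G} {x g : G} :
    g ∈ Cen ((x • Q : Sylow p G) : Subgroup G) ↔ x⁻¹ * g * x ∈ Cen (Q : Subgroup G) := by
  simp only [Subgroup.mem_centralizer_iff, SetLike.mem_coe]
  constructor
  · intro hx u hu
    have := hx (x * u * x⁻¹) (mem_smul_sylow'.2 (by simpa [mul_assoc] using hu))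
    calc u * (x⁻¹ * g * x) = x⁻¹ * (x * u * x⁻¹ * g) * x := by group
      _ = x⁻¹ * g * x * u := by rw [this]; group
  · intro hx u hu
    have := hx _ (mem_smul_sylow'.1 hu)
    calc u * g = x * (x⁻¹ * u * x * (x⁻¹ * g * x)) * x⁻¹ := by group
      _ = g * u := by rw [this]; group

theorem nor_smul {Q : Sylow p G} {x g : G} :
    g ∈ Nor ((x • Q : Sylow p G) : Subgroup G) ↔ x⁻¹ * g * x ∈ Nor (Q : Subgroup G) := by
  rw [← smul_eq_iff_Nor, ← smul_eq_iff_Nor, mul_smul, mul_smul, inv_smul_eq_iff]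

omit [Finite G] in
theorem dvd_of_nofix {X : Type*} [MulAction G X] {P : Subgroup G} (hP : IsPGroup p P) {S : Set X}
    (hf : S.Finite) (hS : ∀ x ∈ P, ∀ R ∈ S, x • R ∈ S) (hn : ∀ R ∈ S, ¬ ∀ x ∈ P, x • R = R) :
    p ∣ S.ncard := by
  let T : SubMulAction P X := ⟨S, fun c x hx => hS c c.2 x hx⟩
  haveI : Finite T := hf
  have h1 := hP.card_modEq_card_fixedPoints T
  have h2 : fixedPoints P T = ∅ := by
    rw [Set.eq_empty_iff_forall_notMem]
    intro R hR
    exact hn R R.2 fun x hx => congrArg Subtype.val (hR ⟨x, hx⟩)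
  rw [h2] at h1
  simp only [Nat.card_eq_fintype_card, Fintype.card_eq_zero] at h1
  exact (Nat.modEq_zero_iff_dvd.1 h1 : p ∣ Nat.card T)

theorem smul_self {Q : Sylow p G} {x : G} (hx : x ∈ (Q : Subgroup G)) : x • Q = Q :=
  smul_eq_iff_Nor.2 (Subgroup.le_normalizer hx)

theorem smul_ne {Q R : Sylow p G} {x : G} (hx : x ∈ (Q : Subgroup G)) (hR : R ≠ Q) : x • R ≠ Q :=
  fun e => hR ((eq_inv_smul_iff.2 e).trans (smul_self (inv_mem hx)))

end VFa

open VFa

namespace SP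

variable (h : SP G p r)

include h

theorem mem_V {Q : Sylow p G} {g : G} :
    g ∈ V p (Q : Subgroup G) ↔ g ∈ Cen (Q : Subgroup G) ∧ ¬ p ∣ orderOf g := by
  obtain ⟨L, -, hmem⟩ := H33.exists_subgroup_reg_Cen (isSyl_of_card (h.card Q) Q.not_dvd_index)
  have e : {g | g ∈ Cen (Q : Subgroup G) ∧ ¬ p ∣ orderOf g} = (L : Set G) :=
    Set.ext fun x => and_comm.trans (hmem x).symm
  rw [V, e, Subgroup.closure_eq, hmem, and_comm]

theorem V_smul {Q : Sylow p G} {x g : G} :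
    g ∈ V p ((x • Q : Sylow p G) : Subgroup G) ↔ x⁻¹ * g * x ∈ V p (Q : Subgroup G) := by
  rw [h.mem_V, h.mem_V, cen_smul]
  have : orderOf (x⁻¹ * g * x) = orderOf g := by
    have := (MulAut.conj x⁻¹).orderOf_eq g
    simpa using this
  rw [this]

theorem card_V (Q R : Sylow p G) :
    Nat.card (V p (Q : Subgroup G)) = Nat.card (V p (R : Subgroup G)) := by
  obtain ⟨x, rfl⟩ := exists_smul_eq G R Q
  exact Nat.card_congr (Equiv.subtypeEquiv (MulAut.conj x⁻¹).toEquiv fun g => by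
    simpa using h.V_smul)

theorem relIndex_eq (Q R : Sylow p G) : (Cen (Q : Subgroup G)).relIndex (Nor (Q : Subgroup G)) =
    (Cen (R : Subgroup G)).relIndex (Nor (R : Subgroup G)) := by
  obtain ⟨x, rfl⟩ := exists_smul_eq G R Q
  have e1 : Cen ((x • R : Sylow p G) : Subgroup G) =
      (Cen (R : Subgroup G)).comap (MulAut.conj x⁻¹).toMonoidHom :=
    Subgroup.ext fun g => by simpa using cen_smul
  have e2 : Nor ((x • R : Sylow p G) : Subgroup G) =
      (Nor (R : Subgroup G)).comap (MulAut.conj x⁻¹).toMonoidHom :=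
    Subgroup.ext fun g => by simpa using nor_smul
  rw [e1, e2, Subgroup.relIndex_comap,
    Subgroup.map_comap_eq_self_of_surjective (MulAut.conj x⁻¹).surjective]

theorem V_le (Q : Sylow p G) : V p (Q : Subgroup G) ≤ Cen (Q : Subgroup G) := fun _ hg => (h.mem_V.1 hg).1

theorem Nor_le (Q : Sylow p G) :
    Nor (Q : Subgroup G) ≤ Subgroup.normalizer (V p (Q : Subgroup G) : Set G) := by
  intro n hn
  rw [Subgroup.mem_normalizer_iff]
  intro g
  have h1 := h.V_smul (Q := Q) (x := n) (g := n * g * n⁻¹)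
  rw [smul_eq_iff_Nor.2 hn] at h1
  rw [h1]
  simp [mul_assoc]

theorem cen_eq {Q : Sylow p G} (hV : V p (Q : Subgroup G) = ⊥) : Cen (Q : Subgroup G) = Q := by
  refine le_antisymm (fun c hc => ?_) (le_Cen_of_card (h.card Q))
  have h1 : H35.pReg p c ∈ V p (Q : Subgroup G) :=
    h.mem_V.2 ⟨H35.pReg_mem p hc, H35.not_dvd_orderOf_pReg p c⟩
  rw [hV, Subgroup.mem_bot] at h1
  have h2 := H35.pPart_mul_pReg p c
  rw [h1, mul_one] at h2
  rw [← h2]
  exact pPart_mem_of_mem_Cen (h.card Q) Q.not_dvd_index hc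

theorem V_eq_bot {Q : Sylow p G} (hC : Cen (Q : Subgroup G) = Q) : V p (Q : Subgroup G) = ⊥ := by
  rw [eq_bot_iff]
  intro g hg
  obtain ⟨h1, h2⟩ := h.mem_V.1 hg
  rw [hC] at h1
  have h3 : orderOf g ∣ p := h.card Q ▸ Subgroup.orderOf_dvd_natCard _ h1
  rcases (Nat.dvd_prime hp.out).1 h3 with h4 | h4
  · exact orderOf_eq_one_iff.1 h4
  · exact absurd (h4 ▸ dvd_rfl) h2

theorem semireg {Q R : Sylow p G} {x : G} (hx : x ∈ (Q : Subgroup G)) (h1 : x ≠ 1) (hR : x • R = R) :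
    R = Q := by
  have h2 := mem_of_isPElt_of_mem_Nor (h.card R) R.not_dvd_index
    (H35.isPElt_of_mem (isPGroup_of_card (h.card Q)) hx) (smul_eq_iff_Nor.1 hR)
  exact Sylow.ext ((eq_zpowers_of_card (h.card R) h2 h1).trans
    (eq_zpowers_of_card (h.card Q) hx h1).symm)

theorem faithful {g : G} (hg : ∀ R : Sylow p G, g • R = R) : g = 1 := by
  haveI := h.simple
  rcases (MonoidHom.normal_ker (toPermHom G (Sylow p G))).eq_bot_or_eq_top with h1 | h1
  · have : g ∈ (toPermHom G (Sylow p G)).ker := Equiv.ext hg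
    rwa [h1, Subgroup.mem_bot] at this
  · exfalso
    obtain ⟨Q⟩ : Nonempty (Sylow p G) := inferInstance
    have h2 : Nor (Q : Subgroup G) = ⊤ := by
      rw [eq_top_iff]
      intro x _
      have : x ∈ (toPermHom G (Sylow p G)).ker := h1 ▸ Subgroup.mem_top x
      exact smul_eq_iff_Nor.1 (Equiv.ext_iff.1 this Q)
    rcases (Subgroup.normalizer_eq_top_iff.1 h2).eq_bot_or_eq_top with h3 | h3
    · have := h.card Q
      rw [h3, Subgroup.card_bot] at this
      exact hp.out.one_lt.ne this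
    · refine h.nc ⟨⟨fun a b => ?_⟩⟩
      exact (commute_of_mem_Cen (h3 ▸ Subgroup.mem_top a : a ∈ (Q : Subgroup G))
        (le_Cen_of_card (h.card Q) (h3 ▸ Subgroup.mem_top b))).eq

theorem fix_le {Q : Sylow p G} {y : G} (hy : y • Q = Q) (hC : y ∉ Cen (Q : Subgroup G)) :
    (fixedBy (Sylow p G) y).ncard ≤ r + 1 := by
  let S : Set (Sylow p G) := fixedBy (Sylow p G) y \ {Q}
  let f : S × (Q : Subgroup G) → ({Q}ᶜ : Set (Sylow p G)) :=
    fun z => ⟨(z.2 : G) • (z.1 : Sylow p G), smul_ne z.2.2 z.1.2.2⟩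
  have hf : Function.Injective f := by
    rintro ⟨⟨R, hR, hRQ⟩, x, hx⟩ ⟨⟨R', hR', hRQ'⟩, x', hx'⟩ e
    have e1 : x • R = x' • R' := congrArg Subtype.val e
    have e2 : (x'⁻¹ * x) • R = R' := by rw [mul_smul, e1, inv_smul_smul]
    have hz : x'⁻¹ * x ∈ (Q : Subgroup G) := mul_mem (inv_mem hx') hx
    by_cases h1 : x'⁻¹ * x = 1
    · rw [h1, one_smul] at e2
      rw [inv_mul_eq_one] at h1
      subst e2 h1
      rfl
    · exfalso
      generalize x'⁻¹ * x = z at e2 hz h1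
      have h2 : y⁻¹ • R = R := by rw [inv_smul_eq_iff]; exact hR.symm
      have h3 : (z⁻¹ * (y * z * y⁻¹)) • R = R := by
        rw [mul_smul, mul_smul, mul_smul, h2, e2, hR', inv_smul_eq_iff, e2]
      have h4 : z⁻¹ * (y * z * y⁻¹) = 1 := by
        by_contra h5
        exact hRQ (h.semireg (mul_mem (inv_mem hz) (conj_mem_of_Nor (smul_eq_iff_Nor.1 hy) hz)) h5 h3)
      rw [inv_mul_eq_one, eq_mul_inv_iff_mul_eq] at h4
      exact hC ((isCen_of_card (h.card Q) hz h1 y).2 h4)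
  have h1 := Nat.card_le_card_of_injective f hf
  rw [Nat.card_prod, h.card Q, Nat.card_coe_set_eq, Nat.card_coe_set_eq] at h1
  have h2 := Set.ncard_add_ncard_compl ({Q} : Set (Sylow p G))
  rw [Set.ncard_singleton, h.num, Nat.add_left_cancel_iff] at h2
  rw [h2] at h1
  have h3 := Nat.le_of_mul_le_mul_right h1 hp.out.pos
  have h4 := Set.ncard_diff_singleton_add_one (s := fixedBy (Sylow p G) y) (a := Q) hy
  rw [← h4]
  exact Nat.add_le_add_right h3 1

theorem ncard_orb {Q R : Sylow p G} (hR : R ≠ Q) :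
    ((fun x : G => x • R) '' (Q : Subgroup G)).ncard = p := by
  rw [Set.InjOn.ncard_image, ← Nat.card_coe_set_eq]
  · exact h.card Q
  · intro x hx x' hx' e
    have e1 : x • R = x' • R := e
    by_contra h1
    refine hR (h.semireg (mul_mem (inv_mem hx') hx) (fun h2 => h1 (inv_mul_eq_one.1 h2).symm) ?_)
    rw [mul_smul, e1, inv_smul_smul]

theorem f1 {Q R : Sylow p G} {y : G} (hy : y ∈ V p (Q : Subgroup G)) (hR : y • R = R) :
    y ∈ V p (R : Subgroup G) := by
  by_cases h1 : R = Q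
  · rwa [h1]
  obtain ⟨h2, h3⟩ := h.mem_V.1 hy
  refine h.mem_V.2 ⟨?_, h3⟩
  by_contra h4
  have h5 := h.fix_le hR h4
  have h6 : insert Q ((fun x : G => x • R) '' (Q : Subgroup G)) ⊆ fixedBy (Sylow p G) y := by
    rintro _ (rfl | ⟨x, hx, rfl⟩)
    · exact smul_eq_iff_Nor.2 (H86.Cen_le_Nor _ h2)
    · change y • x • R = x • R
      rw [← mul_smul, ← (commute_of_mem_Cen hx h2).eq, mul_smul, hR]
  have h7 := Set.ncard_le_ncard h6
  rw [Set.ncard_insert_of_notMem, h.ncard_orb h1] at h7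
  · have := h.lt
    omega
  · rintro ⟨x, hx, e⟩
    exact smul_ne hx h1 e

theorem dvd_ncard {Q : Sylow p G} {S : Set (Sylow p G)} (hS : ∀ x ∈ (Q : Subgroup G), ∀ R ∈ S, x • R ∈ S)
    (hQ : Q ∉ S) : p ∣ S.ncard := by
  refine dvd_of_nofix (isPGroup_of_card (h.card Q)) (Set.toFinite S) hS fun R hR h1 => ?_
  have h2 : (Q : Subgroup G) ≠ ⊥ := fun e => by
    have := h.card Q
    rw [e, Subgroup.card_bot] at this
    exact hp.out.one_lt.ne this
  obtain ⟨⟨x, hx⟩, h3⟩ := Subgroup.ne_bot_iff_exists_ne_one.1 h2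
  exact hQ (h.semireg hx (fun e => h3 (Subtype.ext e)) (h1 x hx) ▸ hR)

theorem trans_of_ncard {Q R R' : Sylow p G} {S : Set (Sylow p G)}
    (hS : ∀ x ∈ (Q : Subgroup G), ∀ R ∈ S, x • R ∈ S) (hQ : Q ∈ S) (hc : S.ncard = p + 1)
    (hR : R ∈ S) (hR' : R' ∈ S) (h1 : R ≠ Q) (h2 : R' ≠ Q) : ∃ x ∈ (Q : Subgroup G), x • R = R' := by
  have h3 : (fun x : G => x • R) '' (Q : Subgroup G) ⊆ S \ {Q} := by
    rintro _ ⟨x, hx, rfl⟩
    exact ⟨hS x hx R hR, smul_ne hx h1⟩
  have h4 := Set.ncard_diff_singleton_add_one (s := S) hQ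
  have h5 := Set.eq_of_subset_of_ncard_le h3 (by rw [h.ncard_orb h1]; omega)
  have h6 : R' ∈ S \ {Q} := ⟨hR', h2⟩
  rw [← h5] at h6
  exact h6

end SP

end NPS
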