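import Mathlib
import Cfsg.Agent.Lib.NPS.VF

/-! See `blueprint/NPS/README.md`. -/

set_option autoImplicit false
set_option linter.unusedSectionVars false
set_option linter.unusedVariables false
set_option linter.style.haveILetI false

open Cfsg H17.Ord H84 MulAction
open H86 (Cen Nor)
open scoped Pointwise ComplexConjugate

namespace NPS

variable {G : Type*} [Group G] [Finite G] {p r : ℕ} [hp : Fact p.Prime]

namespace VGa

theorem dc {α β : Type*} {S : Set α} {T : Set β} (hS : S.Finite) (hT : T.Finite) (R : α → β → Prop)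
    {m n : ℕ} (hm : ∀ a ∈ S, {b | b ∈ T ∧ R a b}.ncard = m)
    (hn : ∀ b ∈ T, {a | a ∈ S ∧ R a b}.ncard = n) : S.ncard * m = T.ncard * n := by
  classical
  rw [Set.ncard_eq_toFinset_card S hS, Set.ncard_eq_toFinset_card T hT]
  refine Finset.card_mul_eq_card_mul R (fun a ha => ?_) (fun b hb => ?_)
  · rw [← hm a (hS.mem_toFinset.1 ha), ← Set.ncard_coe_finset]
    congr 1
    ext b
    simp
  · rw [← hn b (hT.mem_toFinset.1 hb), ← Set.ncard_coe_finset]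
    congr 1
    ext a
    simp

theorem arith {p r k t j : ℕ} (hr : r < p) (hk : 1 ≤ k) (ht : 1 ≤ t) (h1 : k * t ≤ j)
    (h2 : (t + 1) * k + j * (1 + k * p) = (t + 1) * r) : k = 1 ∧ j = t := by
  have h3 : (t + 1) * r < (t + 1) * p := Nat.mul_lt_mul_of_pos_left hr (by omega)
  have h4 : k = 1 := by
    by_contra h5
    have h6 : 2 * t ≤ k * t := Nat.mul_le_mul_right t (by omega)
    have h7 : (t + 1) * p ≤ j * (1 + k * p) :=
      Nat.mul_le_mul (by omega) (by nlinarith)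
    omega
  subst h4
  refine ⟨rfl, ?_⟩
  by_contra h5
  have h7 : (t + 1) * p ≤ j * (1 + 1 * p) := Nat.mul_le_mul (by omega) (by omega)
  omega

omit [Finite G] hp in
theorem line_smul {U : Subgroup G} {L : Set (Sylow p G)} (hL : Line p U L) (x : G) :
    Line p U (x • L) := by
  obtain ⟨g, rfl⟩ := hL
  exact ⟨x * g, (mul_smul x g _).symm⟩

omit [Finite G] hp in
theorem line_self (U : Subgroup G) : Line p U (Fx p U) := ⟨1, (one_smul _ _).symm⟩

omit [Finite G] hp in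
theorem line_ncard {U : Subgroup G} {L : Set (Sylow p G)} (hL : Line p U L) :
    L.ncard = (Fx p U).ncard := by
  obtain ⟨g, rfl⟩ := hL
  exact Set.ncard_smul_set g _

omit hp in
theorem ncard_thru (U : Subgroup G) (γ : Sylow p G) (x : G) :
    {L | Line p U L ∧ x • γ ∈ L}.ncard = {L | Line p U L ∧ γ ∈ L}.ncard := by
  rw [← Set.ncard_image_of_injective {L | Line p U L ∧ γ ∈ L}
    (MulAction.injective x : Function.Injective fun L : Set (Sylow p G) => x • L)]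
  congr 1
  ext L
  constructor
  · rintro ⟨h1, h2⟩
    exact ⟨x⁻¹ • L, ⟨line_smul h1 _, Set.mem_inv_smul_set_iff.2 h2⟩, smul_inv_smul x L⟩
  · rintro ⟨L', ⟨h1, h2⟩, rfl⟩
    exact ⟨line_smul h1 _, Set.smul_mem_smul_set h2⟩

end VGa

open VFa VGa

namespace SP

variable (h : SP G p r) {U : Subgroup G}

include h

theorem exists_mx {α β : Sylow p G} (hne : β ≠ α) {Q : Subgroup G} (h0 : Q ≠ ⊥)
    (h1 : Q ≤ V p (α : Subgroup G)) (h2 : Q ≤ V p (β : Subgroup G)) :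
    ∃ U : Subgroup G, Q ≤ U ∧ Mx p U := by
  let S : Set (Subgroup G) := {W | Q ≤ W ∧ ∃ γ γ' : Sylow p G, γ ≠ γ' ∧
    W = V p (γ : Subgroup G) ⊓ V p (γ' : Subgroup G)}
  obtain ⟨U, ⟨hQ, hU⟩, hm⟩ := (Set.toFinite S).exists_maximal
    ⟨_, le_inf h2 h1, β, α, hne, rfl⟩
  refine ⟨U, hQ, fun e => h0 (eq_bot_iff.2 (e ▸ hQ)), hU, fun γ γ' h3 h4 => ?_⟩
  exact le_antisymm h4 (hm ⟨hQ.trans h4, γ, γ', h3, rfl⟩ h4)

theorem mem_Fx (hU : Mx p U) {R : Sylow p G} : R ∈ Fx p U ↔ U ≤ V p (R : Subgroup G) := by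
  constructor
  · intro hR u hu
    obtain ⟨γ, γ', -, e⟩ := hU.ex
    exact h.f1 (e ▸ hu : u ∈ V p (γ : Subgroup G) ⊓ V p (γ' : Subgroup G)).1 (hR u hu)
  · intro hR u hu
    exact smul_eq_iff_Nor.2 (H86.Cen_le_Nor _ (h.V_le R (hR hu)))

theorem vg_mem_line (hU : Mx p U) {g : G} {R : Sylow p G} :
    R ∈ g • Fx p U ↔ ∀ u ∈ U, g * u * g⁻¹ ∈ V p (R : Subgroup G) := by
  rw [Set.mem_smul_set_iff_inv_smul_mem, h.mem_Fx hU]
  exact forall₂_congr fun u _ => by rw [h.V_smul, inv_inv]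

theorem line_inv (hU : Mx p U) {L : Set (Sylow p G)} (hL : Line p U L) {γ : Sylow p G} (hγ : γ ∈ L) :
    ∀ x ∈ (γ : Subgroup G), ∀ R ∈ L, x • R ∈ L := by
  obtain ⟨g, rfl⟩ := hL
  intro x hx R hR
  rw [h.vg_mem_line hU] at hγ hR ⊢
  intro u hu
  rw [h.V_smul, (commute_of_mem_Cen (inv_mem hx) (h.V_le γ (hγ u hu))).eq, inv_mul_cancel_right]
  exact hR u hu

theorem vg_mem_iff (hU : Mx p U) {L : Set (Sylow p G)} (hL : Line p U L) {γ γ' : Sylow p G}
    (hne : γ ≠ γ') (h1 : γ ∈ L) (h2 : γ' ∈ L) {R : Sylow p G} :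
    R ∈ L ↔ V p (γ : Subgroup G) ⊓ V p (γ' : Subgroup G) ≤ V p (R : Subgroup G) := by
  obtain ⟨g, rfl⟩ := hL
  have h3 := hU.max (g⁻¹ • γ) (g⁻¹ • γ') (fun e => hne (MulAction.injective _ e))
    (le_inf ((h.mem_Fx hU).1 (Set.mem_smul_set_iff_inv_smul_mem.1 h1))
      ((h.mem_Fx hU).1 (Set.mem_smul_set_iff_inv_smul_mem.1 h2)))
  rw [h.vg_mem_line hU] at h1 h2 ⊢
  refine ⟨fun hR w hw => ?_, fun hR u hu => hR ⟨h1 u hu, h2 u hu⟩⟩
  have h4 : g⁻¹ * w * g ∈ U := by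
    rw [h3, Subgroup.mem_inf, h.V_smul, h.V_smul]
    simpa [mul_assoc] using Subgroup.mem_inf.1 hw
  simpa [mul_assoc] using hR _ h4

theorem line_eq (hU : Mx p U) {L L' : Set (Sylow p G)} (hL : Line p U L) (hL' : Line p U L')
    {γ γ' : Sylow p G} (hne : γ ≠ γ') (h1 : γ ∈ L) (h2 : γ' ∈ L) (h3 : γ ∈ L') (h4 : γ' ∈ L') :
    L = L' :=
  Set.ext fun R => (h.vg_mem_iff hU hL hne h1 h2).trans (h.vg_mem_iff hU hL' hne h3 h4).symm

theorem design (hU : Mx p U) : (Fx p U).ncard = p + 1 ∧ ∃ s : ℕ, 2 ≤ s ∧ s * (p + 2) = p + 1 + s * r ∧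
    (∀ γ : Sylow p G, {L | Line p U L ∧ γ ∈ L}.ncard = s) ∧
      ∀ L L', Line p U L → Line p U L' → (L ∩ L').Nonempty := by
  obtain ⟨α, α', hne, e⟩ := hU.ex
  have hα : α ∈ Fx p U := (h.mem_Fx hU).2 (e ▸ inf_le_left)
  have hα' : α' ∈ Fx p U := (h.mem_Fx hU).2 (e ▸ inf_le_right)
  have hF := line_self (p := p) U
  obtain ⟨k, hk⟩ : p ∣ (Fx p U \ {α}).ncard :=
    h.dvd_ncard (Q := α) (fun x hx R hR => ⟨h.line_inv hU hF hα x hx R hR.1, smul_ne hx hR.2⟩)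
      (fun h1 => h1.2 rfl)
  have hk1 : 1 ≤ k := by
    have : 0 < (Fx p U \ {α}).ncard := (Set.ncard_pos).2 ⟨α', hα', hne.symm⟩
    rw [hk] at this
    exact Nat.pos_of_mul_pos_left this
  have hc : (Fx p U).ncard = 1 + k * p := by
    rw [← Set.ncard_diff_singleton_add_one hα, hk]; ring
  obtain ⟨s, hs⟩ : ∃ s, ∀ γ : Sylow p G, {L | Line p U L ∧ γ ∈ L}.ncard = s :=
    ⟨_, fun γ => by obtain ⟨x, rfl⟩ := exists_smul_eq G α γ; exact ncard_thru U α x⟩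
  have h1 : {L | Line p U L}.ncard * (1 + k * p) = (1 + r * p) * s := by
    rw [← h.num, ← Set.ncard_univ]
    refine dc (Set.toFinite _) (Set.toFinite _) (fun L γ => γ ∈ L) (fun L hL => ?_) fun γ _ => hs γ
    rw [← hc, ← line_ncard hL]
    simp
  obtain ⟨j, hj⟩ : p ∣ {L | Line p U L ∧ α ∉ L}.ncard := by
    refine dvd_of_nofix (isPGroup_of_card (h.card α)) (Set.toFinite _)
      (fun x hx L hL => ⟨line_smul hL.1 x, fun h2 => hL.2 ?_⟩) fun L hL h2 => ?_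
    · rwa [Set.mem_smul_set_iff_inv_smul_mem, smul_self (inv_mem hx)] at h2
    · have h3 := h.dvd_ncard (Q := α) (S := L)
        (fun x hx R hR => h2 x hx ▸ Set.smul_mem_smul_set hR) hL.2
      rw [line_ncard hL.1, hc, Nat.dvd_add_left (dvd_mul_left p k)] at h3
      exact hp.out.one_lt.ne' (Nat.dvd_one.1 h3)
  have h2 : {L | Line p U L}.ncard = s + p * j := by
    rw [← hs α, ← hj, ← Set.ncard_union_eq (Set.disjoint_left.2 fun L h3 h4 => h4.2 h3.2)]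
    congr 1
    ext L
    simp only [Set.mem_setOf_eq, Set.mem_union]
    tauto
  obtain ⟨t, rfl⟩ : ∃ t, s = t + 1 := by
    have : 0 < {L | Line p U L ∧ α ∈ L}.ncard := (Set.ncard_pos).2 ⟨_, hF, hα⟩
    rw [hs] at this
    exact ⟨s - 1, by omega⟩
  have h3 : (t + 1) * k + j * (1 + k * p) = (t + 1) * r := by
    rw [h2] at h1
    apply Nat.eq_of_mul_eq_mul_right hp.out.pos
    nlinarith
  have ht : 1 ≤ t := by
    by_contra h4
    obtain rfl : t = 0 := by omega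
    have h5 : j = 0 := by
      by_contra h6
      have h7 : 1 * (1 + 1 * p) ≤ j * (1 + k * p) :=
        Nat.mul_le_mul (by omega) (Nat.add_le_add_left (Nat.mul_le_mul_right p hk1) 1)
      have := h.lt
      omega
    obtain rfl : k = r := by simpa [h5] using h3
    have h8 : Fx p U = Set.univ := by
      rw [← h.num] at hc
      exact (Set.eq_univ_iff_ncard _).2 hc
    refine hU.ne (eq_bot_iff.2 fun u hu => h.faithful fun R => ?_)
    exact (h8 ▸ Set.mem_univ R : R ∈ Fx p U) u hu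
  have h4 : {L | Line p U L ∧ L ≠ Fx p U ∧ (L ∩ Fx p U).Nonempty}.ncard * 1 = (1 + k * p) * t := by
    rw [← hc]
    refine dc (Set.toFinite _) (Set.toFinite _) (fun L γ => γ ∈ L) (fun L hL => ?_) fun γ hγ => ?_
    · obtain ⟨h5, h6, γ, h7, h8⟩ := hL
      refine Set.ncard_eq_one.2 ⟨γ, Set.eq_singleton_iff_unique_mem.2 ⟨⟨h8, h7⟩, fun γ' h9 => ?_⟩⟩
      by_contra h10
      exact h6 (h.line_eq hU h5 hF h10 h9.2 h7 h9.1 h8)
    · have h5 := Set.ncard_diff_singleton_add_one (s := {L | Line p U L ∧ γ ∈ L}) ⟨hF, hγ⟩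
      rw [hs, Nat.add_right_cancel_iff] at h5
      rw [← h5]
      congr 1
      ext L
      exact ⟨fun h6 => ⟨⟨h6.1.1, h6.2⟩, h6.1.2.1⟩, fun h6 => ⟨⟨h6.1.1, h6.2, γ, h6.1.2, hγ⟩, h6.1.2⟩⟩
  have h5 : insert (Fx p U) {L | Line p U L ∧ L ≠ Fx p U ∧ (L ∩ Fx p U).Nonempty} ⊆
      {L | Line p U L} := by
    rintro L (rfl | hL)
    exacts [hF, hL.1]
  have h6 := Set.ncard_insert_of_notMem (a := Fx p U)
    (s := {L | Line p U L ∧ L ≠ Fx p U ∧ (L ∩ Fx p U).Nonempty}) fun h7 => h7.2.1 rfl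
  rw [mul_one] at h4
  rw [h4] at h6
  have h7 := Set.ncard_le_ncard h5
  rw [h6, h2] at h7
  obtain ⟨rfl, rfl⟩ := arith h.lt hk1 ht
    (Nat.le_of_mul_le_mul_left (show p * (k * t) ≤ p * j by nlinarith) hp.out.pos) h3
  have h8 := Set.eq_of_subset_of_ncard_le h5 (by rw [h6, h2]; nlinarith)
  refine ⟨by rw [hc]; ring, j + 1, by omega, by nlinarith, hs, ?_⟩
  rintro _ L' ⟨g, rfl⟩ hL'
  have h9 : g⁻¹ • L' ∈ {L | Line p U L} := line_smul hL' _
  rw [← h8] at h9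
  obtain ⟨γ, h10, h11⟩ : (g⁻¹ • L' ∩ Fx p U).Nonempty := by
    rcases h9 with h9 | h9
    · rw [h9]; exact ⟨α, hα, hα⟩
    · exact h9.2.2
  exact ⟨g • γ, Set.smul_mem_smul_set h11, Set.mem_inv_smul_set_iff.1 h10⟩

end SP

end NPS
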