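import Mathlib
import Cfsg.Agent.Lib.NPS.VG1

/-! See `blueprint/NPS/README.md`. -/

set_option autoImplicit false
set_option linter.unusedSectionVars false
set_option linter.unusedVariables false
set_option linter.style.haveILetI false

open Cfsg H17.Ord H84 MulAction
open H86 (Cen Nor)
open scoped Pointwise ComplexConjugate

namespace NPS

variable {G : Type*} [Group G] [Finite G] {p r : ℕ} [hp : Fact p.Prime]

theorem VG2.dvd_of {H X : Type*} [Group H] [MulAction H X] [Finite X] (S : Set X)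
    (hS : ∀ (c : H) x, x ∈ S → c • x ∈ S) {n : ℕ} (hn : ∀ x ∈ S, n ∣ (stabilizer H x).index) : n ∣ S.ncard := by
  classical
  let S' : SubMulAction H X := ⟨S, fun c _ hx => hS c _ hx⟩
  haveI : Fintype (orbitRel.Quotient H S') := Fintype.ofFinite _
  have : S.ncard = Nat.card S' := (Nat.card_coe_set_eq S).symm
  rw [this, Nat.card_congr (selfEquivSigmaOrbits H S'), Nat.card_sigma]
  refine Finset.dvd_sum fun ω _ => ?_
  rw [Nat.card_coe_set_eq, ← index_stabilizer, SubMulAction.stabilizer_of_subMul]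
  exact hn _ ω.out.2

theorem VG2.line_smul {U : Subgroup G} {L : Set (Sylow p G)} (hL : Line p U L) (g : G) : Line p U (g • L) := by
  obtain ⟨k, rfl⟩ := hL
  exact ⟨g * k, (mul_smul g k _).symm⟩

theorem VG2.line_F (U : Subgroup G) : Line p U (Fx p U) := ⟨1, (one_smul G _).symm⟩

theorem VG2.smul_eq {L : Set (Sylow p G)} {y : G} (e : ∀ R ∈ L, y • R = R) : y • L = L := by
  ext R
  constructor
  · rintro ⟨R', h1, rfl⟩
    simpa only [e R' h1] using h1
  · exact fun h1 => ⟨R, h1, e R h1⟩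

theorem VG2.conj_fix {U : Subgroup G} (g : G) {u : G} (hu : u ∈ U) :
    (g * u * g⁻¹) • g • Fx p U = g • Fx p U := by
  rw [mul_smul, mul_smul, inv_smul_smul, VG2.smul_eq (L := Fx p U) fun R hR => hR u hu]

namespace SP

variable (h : SP G p r) {U : Subgroup G}

include h

theorem VG2_fix {Q : Sylow p G} {v : G} (hv : v ∈ V p (Q : Subgroup G)) : v • Q = Q :=
  Sylow.smul_eq_iff_mem_normalizer.2 (Subgroup.centralizer_le_normalizer _ (h.V_le Q hv))

theorem VG2_card (hU : Mx p U) {L : Set (Sylow p G)} (hL : Line p U L) : L.ncard = p + 1 := by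
  obtain ⟨g, rfl⟩ := hL
  rw [Set.ncard_smul_set, (h.design hU).1]

theorem VG2_pt (hU : Mx p U) {L : Set (Sylow p G)} (hL : Line p U L) {γ : Sylow p G} (hγ : γ ∈ L) {v : G}
    (hv : v ∈ V p (γ : Subgroup G)) (e : v • L = L) : ∀ R ∈ L, v • R = R := by
  intro R hR
  by_cases c : R = γ
  · rw [c]; exact h.VG2_fix hv
  have h1 : v • R ∈ L := e ▸ Set.smul_mem_smul_set hR
  have h2 : v • R ≠ γ := fun e2 => c (smul_left_cancel v (e2.trans (h.VG2_fix hv).symm))
  obtain ⟨x, hx, e1⟩ := h.trans_of_ncard (h.line_inv hU hL hγ) hγ (h.VG2_card hU hL) hR h1 c h2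
  have cm : Commute x v := Subgroup.mem_centralizer_iff.1 (h.V_le γ hv) x hx
  have pw : ∀ n : ℕ, v ^ n • R = x ^ n • R := fun n => by
    induction n with
    | zero => rw [pow_zero, pow_zero]
    | succ n ih => rw [pow_succ, mul_smul, ← e1, ← mul_smul, ← (cm.pow_right n).eq, mul_smul, ih, pow_succ', mul_smul]
  have xp : x ^ p = 1 := by
    have := pow_card_eq_one' (x := (⟨x, hx⟩ : (γ : Subgroup G)))
    rw [h.card γ] at this
    exact congrArg Subtype.val this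
  have h3 : v ^ p ∈ stabilizer G R := by rw [mem_stabilizer_iff, pw, xp, one_smul]
  obtain ⟨m, hm⟩ := exists_pow_eq_self_of_coprime ((Nat.Prime.coprime_iff_not_dvd hp.out).2 (h.mem_V.1 hv).2)
  exact mem_stabilizer_iff.1 (hm ▸ pow_mem h3 m)

theorem VG2_stab (hU : Mx p U) {g v : G} {γ : Sylow p G} (hγ : γ ∈ g • Fx p U) (hv : v ∈ V p (γ : Subgroup G))
    (e : v • g • Fx p U = g • Fx p U) : g⁻¹ * v * g ∈ U := by
  have h1 := h.VG2_pt hU ⟨g, rfl⟩ hγ hv e
  have h2 : ∀ R ∈ Fx p U, g⁻¹ * v * g ∈ V p (R : Subgroup G) := fun R hR =>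
    h.V_smul.1 (h.f1 hv (h1 _ (Set.smul_mem_smul_set hR)))
  obtain ⟨a, b, -, e1⟩ := hU.ex
  rw [e1]
  exact ⟨h2 a ((h.mem_Fx hU).2 (e1.le.trans inf_le_left)), h2 b ((h.mem_Fx hU).2 (e1.le.trans inf_le_right))⟩

theorem VG2_le (hU : Mx p U) {g u : G} {γ : Sylow p G} (hγ : γ ∈ g • Fx p U) (hu : u ∈ U) :
    g * u * g⁻¹ ∈ V p (γ : Subgroup G) := by
  obtain ⟨R, hR, rfl⟩ := hγ
  refine h.V_smul.2 ?_
  rw [show g⁻¹ * (g * u * g⁻¹) * g = u by group]
  exact (h.mem_Fx hU).1 hR hu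

theorem central (hU : Mx p U) {y : G} (hy : y ∈ U) {L : Set (Sylow p G)} (hL : Line p U L)
    (hne : L ≠ Fx p U) (hfix : y • L = L) : y = 1 := by
  obtain ⟨cF, s, s2, -, hs, meet⟩ := h.design hU
  have lF := VG2.line_F (p := p) U
  have i1 : ∀ K, Line p U K → y • K = K → ∀ R ∈ K, y • R = R := fun K hK e => by
    obtain ⟨b, b1, b2⟩ := meet K _ hK lF
    exact h.VG2_pt hU hK b1 ((h.mem_Fx hU).1 b2 hy) e
  have i2 : ∀ K, Line p U K → y • K = K := fun K hK => by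
    by_contra hn
    have un : ∀ a ∈ K, ∀ b ∈ K, y • a = a → y • b = b → a = b := fun a ha b hb e1 e2 => by
      by_contra c
      exact hn (h.line_eq hU (VG2.line_smul hK y) hK c ⟨a, ha, e1⟩ ⟨b, hb, e2⟩ ha hb)
    obtain ⟨a, a1, a2⟩ := meet K _ hK lF
    obtain ⟨b, b1, b2⟩ := meet K _ hK hL
    obtain rfl : a = b := un a a1 b b1 (a2 y hy) (i1 L hL hfix b b2)
    obtain ⟨d, d1, d2⟩ := Set.exists_ne_of_one_lt_ncard (s := Fx p U) (by rw [cF]; have := hp.out.pos; omega) a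
    haveI : Nontrivial (d : Subgroup G) := Finite.one_lt_card_iff_nontrivial.1 (by rw [h.card d]; exact hp.out.one_lt)
    obtain ⟨⟨x, hx⟩, x1⟩ := exists_ne (1 : (d : Subgroup G))
    have x1 : x⁻¹ ≠ 1 := fun e => x1 (Subtype.ext (inv_eq_one.1 e))
    have cm : x * y = y * x := Subgroup.mem_centralizer_iff.1 (h.V_le d ((h.mem_Fx hU).1 d1 hy)) x hx
    have fx : y • x • L = x • L := by rw [← mul_smul, ← cm, mul_smul, hfix]
    obtain ⟨c, c1, c2⟩ := meet K _ hK (VG2.line_smul hL x)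
    obtain rfl : a = c := un a a1 c c1 (a2 y hy) (i1 _ (VG2.line_smul hL x) fx c c2)
    refine hne (h.line_eq hU hL lF (γ := a) (γ' := x⁻¹ • a) (fun e => d2 (h.semireg (inv_mem hx) x1 e.symm).symm)
      b2 (Set.mem_smul_set_iff_inv_smul_mem.1 c2) a2 (h.line_inv hU lF d1 _ (inv_mem hx) a a2))
  refine h.faithful fun R => ?_
  obtain ⟨K, hK, hR⟩ := Set.nonempty_of_ncard_ne_zero (s := {L | Line p U L ∧ R ∈ L}) (by rw [hs]; omega)
  exact i1 K hK (i2 K hK) R hR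

theorem geo (hU : Mx p U) : ∃ (γ : Sylow p G) (s : ℕ), U ≤ V p (γ : Subgroup G) ∧
    U ≠ V p (γ : Subgroup G) ∧ 2 ≤ s ∧ s * (p + 2) = p + 1 + s * r ∧ Nat.card U ∣ s - 1 ∧
    U.relIndex (V p (γ : Subgroup G)) ∣ s ∧
    ∀ v ∈ V p (γ : Subgroup G), v ∉ U → ∀ u ∈ U, v * u * v⁻¹ ∈ U → u = 1 := by
  obtain ⟨cF, s, s2, hs1, hs, -⟩ := h.design hU
  have lF := VG2.line_F (p := p) U
  obtain ⟨γ, hγ⟩ := Set.nonempty_of_ncard_ne_zero (s := Fx p U) (by rw [cF]; omega)
  have le : U ≤ V p (γ : Subgroup G) := (h.mem_Fx hU).1 hγ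
  have inv : ∀ v ∈ V p (γ : Subgroup G), ∀ L ∈ {L | Line p U L ∧ γ ∈ L}, v • L ∈ {L | Line p U L ∧ γ ∈ L} :=
    fun v hv L hL => ⟨VG2.line_smul hL.1 v, γ, hL.2, h.VG2_fix hv⟩
  have c1 : ∀ g u : G, g * u * g⁻¹ = 1 → u = 1 := fun g u e => by
    rw [show u = g⁻¹ * (g * u * g⁻¹) * g by group, e]; group
  refine ⟨γ, s, le, fun e => ?_, s2, hs1, ?_, ?_, fun v hv hn u hu e => ?_⟩
  · obtain ⟨L, ⟨⟨g, rfl⟩, hg⟩, ne⟩ :=
      Set.exists_ne_of_one_lt_ncard (s := {L | Line p U L ∧ γ ∈ L}) (by rw [hs]; omega) (Fx p U)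
    refine hU.ne (eq_bot_iff.2 fun u hu => c1 g u ?_)
    exact h.central hU (e ▸ h.VG2_le hU hg hu) ⟨g, rfl⟩ ne (VG2.conj_fix g hu)
  · rw [← hs γ, ← Set.ncard_sdiff_singleton_of_mem (a := Fx p U) (s := {L | Line p U L ∧ γ ∈ L}) ⟨lF, hγ⟩]
    refine VG2.dvd_of (H := U) _ (fun c L hL => ?_) fun L hL => ?_
    · refine (Set.mem_diff _).2 ⟨inv c (le c.2) L hL.1, fun e => hL.2 ?_⟩
      have e1 : (c : G) • L = (c : G) • Fx p U := (Set.mem_singleton_iff.1 e).trans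
        (VG2.smul_eq (L := Fx p U) fun R hR => hR c c.2).symm
      exact smul_left_cancel _ e1
    · have : stabilizer U L = ⊥ := eq_bot_iff.2 fun c hc => Subtype.ext (h.central hU c.2 hL.1.1 hL.2 hc)
      rw [this, Subgroup.index_bot]
  · rw [← hs γ]
    refine VG2.dvd_of (H := V p (γ : Subgroup G)) _ (fun c L hL => inv c c.2 L hL) ?_
    rintro _ ⟨⟨g, rfl⟩, hg⟩
    have e1 : stabilizer (V p (γ : Subgroup G)) (g • Fx p U) =
        (U.map (MulAut.conj g).toMonoidHom).subgroupOf (V p (γ : Subgroup G)) := by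
      ext c
      rw [Subgroup.mem_subgroupOf, mem_stabilizer_iff]
      constructor
      · exact fun e => ⟨_, h.VG2_stab hU hg c.2 e, by simp [mul_assoc]⟩
      · rintro ⟨u, hu, e⟩
        change (c : G) • g • Fx p U = _
        rw [← e]; exact VG2.conj_fix g hu
    have l2 : U.map (MulAut.conj g).toMonoidHom ≤ V p (γ : Subgroup G) := by
      rintro _ ⟨u, hu, rfl⟩; exact h.VG2_le hU hg hu
    have e2 := ((U.map (MulAut.conj g).toMonoidHom).subgroupOf (V p (γ : Subgroup G))).card_mul_index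
    have e3 := (U.subgroupOf (V p (γ : Subgroup G))).card_mul_index
    rw [Nat.card_congr (Subgroup.subgroupOfEquivOfLe l2).toEquiv,
      Subgroup.card_map_of_injective (MulAut.conj g).injective] at e2
    rw [Nat.card_congr (Subgroup.subgroupOfEquivOfLe le).toEquiv] at e3
    rw [e1, Nat.eq_of_mul_eq_mul_left Nat.card_pos (e2.trans e3.symm)]
    exact dvd_rfl
  · refine c1 v u (h.central hU e ⟨v, rfl⟩ (fun e1 => hn ?_) (VG2.conj_fix v hu))
    simpa using h.VG2_stab hU (g := 1) (by rwa [one_smul]) hv (by rw [one_smul, e1])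

end SP

end NPS
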