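import Mathlib
import Cfsg.Agent.Lib.NPS.VF
import Cfsg.Agent.Lib.LocStruct.SylowIn
import Cfsg.Agent.Lib.Core.Coprime

/-! See `blueprint/NPS/README.md`. -/

set_option autoImplicit false
set_option linter.unusedSectionVars false
set_option linter.unusedVariables false
set_option linter.style.haveILetI false

open Cfsg H17.Ord H84 MulAction
open H86 (Cen Nor)
open scoped Pointwise ComplexConjugate

namespace NPS

variable {G : Type*} [Group G] [Finite G] {p r : ℕ} [hp : Fact p.Prime]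

namespace VT1

open H69 Subgroup
open scoped commutatorElement

theorem fx_iff {Y : Subgroup G} {γ : Sylow p G} : γ ∈ Fx p Y ↔ Y ≤ Nor (γ : Subgroup G) :=
  ⟨fun h u hu => Sylow.smul_eq_iff_mem_normalizer.1 (h u hu),
    fun h u hu => Sylow.smul_eq_iff_mem_normalizer.2 (h hu)⟩

theorem comm_cen (h : SP G p r) {γ : Sylow p G} {a b : G} (ha : a ∈ Nor (γ : Subgroup G))
    (hb : b ∈ Nor (γ : Subgroup G)) : ⁅a, b⁆ ∈ Cen (γ : Subgroup G) := by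
  have := isCyclic_of_prime_card (h.card γ)
  obtain ⟨g, hg⟩ := IsCyclic.exists_generator (α := (γ : Subgroup G))
  have k : ∀ a ∈ Nor (γ : Subgroup G), ∃ n : ℤ, ∀ w ∈ (γ : Subgroup G), a * w * a⁻¹ = w ^ n := fun a ha => by
    obtain ⟨n, hn⟩ := hg ⟨_, (mem_normalizer_iff.1 ha g).1 g.2⟩
    have hn : (g : G) ^ n = a * g * a⁻¹ := congrArg Subtype.val hn
    refine ⟨n, fun w hw => ?_⟩
    obtain ⟨m, hm⟩ := hg ⟨w, hw⟩
    have hm : (g : G) ^ m = w := congrArg Subtype.val hm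
    rw [← hm, ← conj_zpow, ← hn, ← zpow_mul, ← zpow_mul, mul_comm]
  obtain ⟨n, hn⟩ := k a ha
  obtain ⟨m, hm⟩ := k b hb
  intro w hw
  have h1 := (mem_normalizer_iff.1 (inv_mem (mul_mem hb ha)) w).1 hw
  generalize e : (b * a)⁻¹ * w * (b * a)⁻¹⁻¹ = u at h1
  obtain rfl : w = b * (a * u * a⁻¹) * b⁻¹ := by rw [← e]; group
  have h2 : a * (b * u * b⁻¹) * a⁻¹ = b * (a * u * a⁻¹) * b⁻¹ := by
    rw [hm u h1, hn u h1, hn _ (zpow_mem h1 m), hm _ (zpow_mem h1 n), ← zpow_mul, ← zpow_mul, mul_comm]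
  conv_lhs => rw [← h2]
  simp only [commutatorElement_def]
  calc _ = a * (b * u * b⁻¹) * a⁻¹ * (a * b * a⁻¹ * b⁻¹) := rfl
    _ = a * b * u * a⁻¹ * b⁻¹ := by group
    _ = _ := by group

variable {l : ℕ} [hl : Fact l.Prime] (h : SP G p r) (hlp : l ≠ p) {Y : Subgroup G} (hY : IsPGroup l Y)
  {γ γ' : Sylow p G}
include h hlp hY

theorem mem_V_of {y : G} (hy : y ∈ Y) (hc : y ∈ Cen (γ : Subgroup G)) : y ∈ V p (γ : Subgroup G) := by
  refine h.mem_V.2 ⟨hc, fun e => hlp ?_⟩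
  obtain ⟨k, hk⟩ := hY ⟨y, hy⟩
  have : y ^ l ^ k = 1 := congrArg Subtype.val hk
  exact ((Nat.prime_dvd_prime_iff_eq hp.out hl.out).1
    (hp.out.dvd_of_dvd_pow (e.trans (orderOf_dvd_of_pow_eq_one this)))).symm

theorem inf_cen_le (h2 : γ' ∈ Fx p Y) : Cen (γ : Subgroup G) ⊓ Y ≤ Cen (γ' : Subgroup G) ⊓ Y :=
  fun y hy => ⟨h.V_le _ (h.f1 (mem_V_of h hlp hY hy.2 hy.1) (h2 y hy.2)), hy.2⟩

theorem full_tr (h1 : γ ∈ Fx p Y) (h2 : γ' ∈ Fx p Y)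
    (hf : ¬ l ∣ (Y ⊔ Cen (γ : Subgroup G)).relIndex (Nor (γ : Subgroup G))) :
    ¬ l ∣ (Y ⊔ Cen (γ' : Subgroup G)).relIndex (Nor (γ' : Subgroup G)) := by
  have k : ∀ δ ∈ Fx p Y, (Cen (δ : Subgroup G) ⊓ Y).relIndex Y *
      (Y ⊔ Cen (δ : Subgroup G)).relIndex (Nor (δ : Subgroup G)) =
      (Cen (δ : Subgroup G)).relIndex (Nor (δ : Subgroup G)) := fun δ hδ => by
    rw [inf_relIndex_right, ← H1.relIndex_sup_of_le_normalizer (le_normalizer_centralizer (fx_iff.1 hδ)),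
      relIndex_mul_relIndex _ _ _ le_sup_right (sup_le (fx_iff.1 hδ) (centralizer_le_normalizer _))]
  have e := k γ h1
  rw [h.relIndex_eq γ γ', ← k γ' h2, le_antisymm (inf_cen_le h hlp hY h2) (inf_cen_le h hlp hY h1)] at e
  rwa [← Nat.eq_of_mul_eq_mul_left (Nat.pos_of_ne_zero index_ne_zero_of_finite) e]

omit hY hlp h in
theorem full_mono {Y' : Subgroup G} (e : Y ≤ Y')
    (hf : ¬ l ∣ (Y ⊔ Cen (γ : Subgroup G)).relIndex (Nor (γ : Subgroup G))) :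
    ¬ l ∣ (Y' ⊔ Cen (γ : Subgroup G)).relIndex (Nor (γ : Subgroup G)) :=
  fun d => hf (d.trans (relIndex_dvd_of_le_left _ (sup_le_sup_right e _)))

theorem exists_gt
    (hQ : ∀ Q : Subgroup G, Q ≤ V p (γ : Subgroup G) → IsPGroup l Q →
      ¬ l ∣ Q.relIndex (V p (γ : Subgroup G)) → Q ≤ V p (γ' : Subgroup G) → γ' = γ)
    (h1 : γ ∈ Fx p Y) (h2 : γ' ∈ Fx p Y) (hne : γ' ≠ γ) :
    ∃ Y1, Y < Y1 ∧ IsPGroup l Y1 ∧ γ ∈ Fx p Y1 ∧
      Y1 ≤ H2.relCentralizer Y (Cen (γ : Subgroup G) ⊓ Y) := by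
  obtain ⟨T, hT, YT⟩ := exists_isSylowIn_le hY (fx_iff.1 h1)
  have hne' : Y ≠ T := by
    rintro rfl
    have s := hT.inf_normal ((h.V_le γ).trans (centralizer_le_normalizer _)) (h.Nor_le γ)
    exact hne (hQ _ s.le s.isP s.not_dvd_relIndex fun y hy => h.f1 hy.2 (h2 y hy.1))
  refine ⟨T ⊓ normalizer (Y : Set G), lt_inf_normalizer_of_lt hT.isP (lt_of_le_of_ne YT hne'),
    hT.isP.to_le inf_le_left, fx_iff.2 (inf_le_left.trans hT.le), fun n hn => ⟨?_, fun y hy => ⟨?_, ?_⟩⟩⟩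
  · exact le_normalizer_inf (le_normalizer_centralizer (inf_le_left.trans hT.le)) inf_le_right hn
  · exact comm_cen h (hT.le hn.1) (fx_iff.1 h1 hy)
  · exact Y.mul_mem ((mem_normalizer_iff.1 hn.2 y).1 hy) (Y.inv_mem hy)

end VT1

namespace SP

variable (h : SP G p r)

include h

theorem stab {l : ℕ} [Fact l.Prime] (hlp : l ≠ p) (hM : ¬ l ∣ Nat.card (Sylow p G))
    (hQ : ∀ γ γ' : Sylow p G, ∀ Q : Subgroup G, Q ≤ V p (γ : Subgroup G) → IsPGroup l Q →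
      ¬ l ∣ Q.relIndex (V p (γ : Subgroup G)) → Q ≤ V p (γ' : Subgroup G) → γ' = γ)
    {Y : Subgroup G} (hY : IsPGroup l Y) {γ γ' : Sylow p G} (h1 : γ ∈ Fx p Y) (h2 : γ' ∈ Fx p Y)
    (hfull : ¬ l ∣ (Y ⊔ Cen (γ : Subgroup G)).relIndex (Nor (γ : Subgroup G))) {y : G} (hy : y ∈ Y)
    {k : ℕ} (hk : Ex (γ : Subgroup G) y k) : Ex (γ' : Subgroup G) y k := by
  induction Y using WellFoundedGT.induction generalizing γ γ' y with
  | ind Y ih =>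
  by_cases hne : γ' = γ
  · rwa [hne]
  obtain ⟨Y1, a1, a2, a3, a4⟩ := VT1.exists_gt h hlp hY (hQ γ γ') h1 h2 hne
  obtain ⟨Y2, b1, b2, b3, b4⟩ := VT1.exists_gt h hlp hY (hQ γ' γ) h2 h1 (Ne.symm hne)
  rw [← le_antisymm (VT1.inf_cen_le h hlp hY h2) (VT1.inf_cen_le h hlp hY h1)] at b4
  obtain ⟨S, hS, c1⟩ := H69.exists_isSylowIn_le a2 a4
  obtain ⟨c, hc, c2⟩ := hS.exists_le_cj b2 b4
  obtain ⟨α, hα⟩ := hS.isP.nonempty_fixed_point_of_prime_not_dvd_card (Sylow p G) hM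
  have hα : α ∈ Fx p S := fun u hu => hα ⟨u, hu⟩
  have hw := (inv_mem hc).2 y hy
  have e : c⁻¹ * y * c = (c⁻¹ * y * c⁻¹⁻¹ * y⁻¹) * y := by group
  have d1 : c⁻¹ * y * c ∈ Y := e ▸ mul_mem hw.2 hy
  have d2 : Ex (γ : Subgroup G) (c⁻¹ * y * c) k := fun w hw' => by
    have := hw.1 _ (pow_mem hw' k)
    rw [e, show ∀ u : G, u * y * w * (u * y)⁻¹ = u * (y * w * y⁻¹) * u⁻¹ from fun u => by group, hk w hw']
    exact mul_inv_eq_iff_eq_mul.2 this.symm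
  have d3 := ih Y1 a1 a2 a3 (fun u hu => hα u (c1 hu)) (VT1.full_mono a1.le hfull) (a1.le d1) d2
  have d4 : c • α ∈ Fx p Y2 := fun u hu => by
    have := hα _ (H69.mem_cj.1 (c2 hu))
    rw [smul_smul, show u * c = c * (c⁻¹ * u * c) by group, mul_smul, this]
  refine ih Y2 b1 b2 d4 b3 (VT1.full_mono b1.le
    (VT1.full_tr h hlp hY h1 (fun u hu => d4 u (b1.le hu)) hfull)) (b1.le hy) fun w hw' => ?_
  rw [H69.coe_smul_sylow] at hw'
  obtain ⟨x, hx, rfl⟩ := H69.mem_cj'.1 hw'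
  rw [conj_pow, ← d3 x hx]
  group

end SP

end NPS
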