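import Mathlib
import Cfsg.Agent.Lib.NPS.VT1

/-! See `blueprint/NPS/README.md`. -/

set_option autoImplicit false
set_option linter.unusedSectionVars false
set_option linter.unusedVariables false
set_option linter.style.haveILetI false

open Cfsg H17.Ord H84 MulAction
open H86 (Cen Nor)
open scoped Pointwise ComplexConjugate

namespace NPS

variable {G : Type*} [Group G] [Finite G] {p r : ℕ} [hp : Fact p.Prime]

namespace VT2

open H69 Subgroup
open scoped commutatorElement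

theorem ex_r {P : Subgroup G} (L : Log p P) (n : Nor P) : Ex P (n : G) (L.r n : ZMod p).val := by
  intro w hw
  have h1 : (⟨_, conj_mem_of_Nor n.2 hw⟩ : P) = ⟨w ^ (L.r n : ZMod p).val, pow_mem hw _⟩ := by
    apply L.bij.1
    change L.l (n * w * (n : G)⁻¹) = L.l (w ^ (L.r n : ZMod p).val)
    rw [L.l_conj n w (L.le_Cen hw), L.l_pow (L.le_Cen hw), ZMod.natCast_zmod_val]
  exact congrArg Subtype.val h1

theorem r_eq {P : Subgroup G} (L : Log p P) {n m : Nor P} {k : ℕ} (hn : Ex P (n : G) k)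
    (hm : Ex P (m : G) k) : L.r n = L.r m := by
  obtain ⟨w, hw, h1⟩ := L.exists_l 1
  have h2 := L.l_conj n w (L.le_Cen hw)
  have h3 := L.l_conj m w (L.le_Cen hw)
  rw [hn w hw, h1, mul_one] at h2
  rw [hm w hw, h1, mul_one] at h3
  exact Units.ext (h2.symm.trans h3)

theorem full {P : Subgroup G} (L : Log p P) {l m : ℕ} (he : (Cen P).relIndex (Nor P) = l * m)
    {n : Nor P} (hn : L.r n ^ m ≠ 1) :
    ¬ l ∣ (zpowers (n : G) ⊔ Cen P).relIndex (Nor P) := by
  rintro ⟨j, hj⟩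
  have hle : zpowers (n : G) ⊔ Cen P ≤ Nor P :=
    sup_le ((zpowers_le_of_mem n.2)) (H86.Cen_le_Nor P)
  have h1 := relIndex_mul_relIndex (Cen P) (zpowers (n : G) ⊔ Cen P) (Nor P) le_sup_right hle
  have hk : L.r.ker = (Cen P).subgroupOf (Nor P) := by
    ext x
    rw [MonoidHom.mem_ker, L.r_eq_one, mem_subgroupOf]
  have h2 : n ^ L.r.ker.relIndex ((zpowers (n : G) ⊔ Cen P).subgroupOf (Nor P)) ∈ L.r.ker :=
    pow_relIndex_mem _ (mem_subgroupOf.2 (mem_sup_left (mem_zpowers _)))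
  rw [MonoidHom.mem_ker, map_pow, hk, relIndex_subgroupOf hle] at h2
  have hl0 : 0 < l := by
    rcases Nat.eq_zero_or_pos l with h0 | h0
    · rw [h0, zero_mul] at he
      exact absurd he index_ne_zero_of_finite
    · exact h0
  have h3 : m = (Cen P).relIndex (zpowers (n : G) ⊔ Cen P) * j := by
    apply Nat.eq_of_mul_eq_mul_left hl0
    rw [← he, ← h1, hj]
    ring
  exact hn (by rw [h3, pow_mul, h2, one_pow])

theorem not_le {P : Subgroup G} (L : Log p P) {l m : ℕ} [hl : Fact l.Prime]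
    (he : (Cen P).relIndex (Nor P) = l * m) {T : Subgroup G} (hT : ¬ l ∣ T.relIndex (Nor P))
    (h : ∀ n : Nor P, (n : G) ∈ T → L.r n ^ m = 1) : False := by
  let μ : Nor P →* (ZMod p)ˣ := (powMonoidHom m).comp L.r
  have h1 : T.subgroupOf (Nor P) ≤ μ.ker := fun n hn => h n hn
  have h2 : μ.ker.index ∣ T.relIndex (Nor P) := index_dvd_of_le h1
  obtain ⟨⟨_, n, rfl⟩, hg⟩ := IsCyclic.exists_ofOrder_eq_natCard (α := L.r.range)
  rw [L.card_range, he, ← orderOf_coe] at hg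
  change orderOf (L.r n) = l * m at hg
  have hm : m ≠ 0 := by
    rintro rfl
    rw [mul_zero] at he
    exact absurd he index_ne_zero_of_finite
  have h3 : orderOf (μ n) = l := by
    change orderOf (L.r n ^ m) = l
    rw [orderOf_pow_of_dvd hm (hg ▸ dvd_mul_left m l), hg, Nat.mul_div_cancel _ (Nat.pos_of_ne_zero hm)]
  have h4 : l ∣ μ.ker.index := by
    rw [index_ker, ← h3]
    exact Subgroup.orderOf_dvd_natCard _ ⟨n, rfl⟩
  exact hT (h4.trans h2)

theorem no_stab (h : SP G p r) {l : ℕ} [hlf : Fact l.Prime] {α : Sylow p G}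
    (hl : l ∣ (Cen (α : Subgroup G)).relIndex (Nor (α : Subgroup G)))
    (hM : ¬ l ∣ Nat.card (Sylow p G))
    (hQ : ∀ γ γ' : Sylow p G, ∀ Q : Subgroup G, Q ≤ V p (γ : Subgroup G) → IsPGroup l Q →
      ¬ l ∣ Q.relIndex (V p (γ : Subgroup G)) → Q ≤ V p (γ' : Subgroup G) → γ' = γ) : False := by
  obtain ⟨S⟩ : Nonempty (Sylow l G) := inferInstance
  obtain ⟨γ, hγ⟩ := S.2.nonempty_fixed_point_of_prime_not_dvd_card (Sylow p G) hM
  have hS : (S : Subgroup G) ≤ Nor (γ : Subgroup G) := VT1.fx_iff.1 fun u hu => hγ ⟨u, hu⟩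
  rw [h.relIndex_eq α γ] at hl
  obtain ⟨L⟩ := nonempty_log (h.card γ) γ.not_dvd_index
  have hlp : l ≠ p := by
    rintro rfl
    have h1 := hl.trans (L.card_range ▸ card_subgroup_dvd_card L.r.range)
    rw [Nat.card_eq_fintype_card, ZMod.card_units] at h1
    have h2 := hp.out.two_le
    have h3 := Nat.le_of_dvd (by omega) h1
    omega
  obtain ⟨m, he⟩ := hl
  have key : ∀ x y : Nor (γ : Subgroup G), (x : G) ∈ (S : Subgroup G) → ∀ u : G,
      (y : G) = u * x * u⁻¹ → L.r x ^ m ≠ 1 → L.r x = L.r y := by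
    intro x y hx u hy hm
    have h1 : γ ∈ Fx p (zpowers (x : G)) := VT1.fx_iff.2 (zpowers_le_of_mem x.2)
    have h2 : u⁻¹ • γ ∈ Fx p (zpowers (x : G)) := by
      refine VT1.fx_iff.2 (zpowers_le_of_mem (VFa.nor_smul.2 ?_))
      rw [inv_inv, ← hy]
      exact y.2
    have h3 := h.stab hlp hM hQ (S.2.to_le (zpowers_le_of_mem hx)) h1 h2 (full L he hm)
      (mem_zpowers _) (ex_r L x)
    refine r_eq L (ex_r L x) fun w hw => ?_
    have h4 := h3 (u⁻¹ * w * u) (VFa.mem_smul_sylow'.2 (by simpa [mul_assoc] using hw))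
    have h5 : (u⁻¹ * w * u) ^ (L.r x : ZMod p).val = u⁻¹ * w ^ (L.r x : ZMod p).val * u := by
      simpa using conj_pow (a := u⁻¹) (b := w) (i := (L.r x : ZMod p).val)
    rw [h5] at h4
    rw [hy]
    calc u * (x : G) * u⁻¹ * w * (u * x * u⁻¹)⁻¹
        = u * ((x : G) * (u⁻¹ * w * u) * (x : G)⁻¹) * u⁻¹ := by group
      _ = _ := by rw [h4]; group
  haveI := h.simple
  have hperf : _root_.commutator G = ⊤ :=
    (Normal.eq_bot_or_eq_top inferInstance).resolve_left fun e => h.nc ((commutator_eq_bot_iff G).1 e)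
  have hfoc := commutator_inf_eq_focalSubgroup S
  rw [hperf, top_inf_eq] at hfoc
  have hle : (S : Subgroup G).focalSubgroup ≤
      (((powMonoidHom m).comp L.r).ker).map (Nor (γ : Subgroup G)).subtype := by
    rw [focalSubgroup_def, closure_le]
    rintro g ⟨hg, x, hx, u, rfl⟩
    have hy : u * x * u⁻¹ ∈ (S : Subgroup G) := by
      have := mul_mem (inv_mem hg) hx
      rwa [show ⁅x, u⁆⁻¹ * x = u * x * u⁻¹ by rw [commutatorElement_def]; group] at this
    let X : Nor (γ : Subgroup G) := ⟨x, hS hx⟩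
    let Y : Nor (γ : Subgroup G) := ⟨u * x * u⁻¹, hS hy⟩
    refine ⟨X * Y⁻¹, ?_, ?_⟩
    · change L.r (X * Y⁻¹) ^ m = 1
      rw [map_mul, map_inv]
      by_cases h1 : L.r X ^ m = 1
      · by_cases h2 : L.r Y ^ m = 1
        · rw [mul_pow, inv_pow, h1, h2, inv_one, mul_one]
        · rw [key Y X hy u⁻¹ (by change x = u⁻¹ * (u * x * u⁻¹) * u⁻¹⁻¹; group) h2, mul_inv_cancel,
            one_pow]
      · rw [key X Y hx u rfl h1, mul_inv_cancel, one_pow]
    · change x * (u * x * u⁻¹)⁻¹ = ⁅x, u⁆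
      rw [commutatorElement_def]
      group
  refine not_le L he (T := S) (fun d => S.not_dvd_index (d.trans (relIndex_dvd_index_of_le hS)))
    fun n hn => ?_
  obtain ⟨n', h1, h2⟩ := hle (hfoc ▸ hn)
  obtain rfl : n' = n := Subtype.ext h2
  exact h1

end VT2

namespace SP

variable (h : SP G p r)

include h

theorem tr {l : ℕ} [Fact l.Prime] {α : Sylow p G}
    (hl : l ∣ (Cen (α : Subgroup G)).relIndex (Nor (α : Subgroup G))) {Q : Subgroup G}
    (hQ : Q ≤ V p (α : Subgroup G)) (hQl : IsPGroup l Q) (hi : ¬ l ∣ Q.relIndex (V p (α : Subgroup G))) :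
    ∃ β : Sylow p G, β ≠ α ∧ Q ≤ V p (β : Subgroup G) := by
  by_contra hno
  have hno' : ∀ β : Sylow p G, Q ≤ V p (β : Subgroup G) → β = α := fun β hβ => by
    by_contra hne
    exact hno ⟨β, hne, hβ⟩
  refine VT2.no_stab h hl (fun hM => ?_) fun γ γ' Q' h1 h2 h3 h4 => ?_
  · have ha : α ∈ fixedPoints Q (Sylow p G) := fun q =>
      smul_eq_iff_Nor.2 (H86.Cen_le_Nor _ (h.V_le α (hQ q.2)))
    obtain ⟨β, hβ, hne⟩ := hQl.exists_fixed_point_of_prime_dvd_card_of_fixed_point _ hM ha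
    exact hne (hno' β fun q hq => h.f1 (hQ hq) (hβ ⟨q, hq⟩)).symm
  · obtain ⟨g, rfl⟩ := MulAction.exists_smul_eq G α γ
    have h5 : Q.map (MulAut.conj g).toMonoidHom ≤ V p ((g • α : Sylow p G) : Subgroup G) :=
      fun x hx => h.V_smul.2 (hQ (H69.mem_cj.1 hx))
    obtain ⟨v, hv, h6⟩ := (H69.isSylowIn_of_not_dvd_relIndex h2 h1 h3).exists_cj_le (hQl.map _) h5
    have h7 : (v * g)⁻¹ • γ' = α := hno' _ fun q hq => by
      refine h.V_smul.2 (h4 ?_)
      have := h6 (H69.cj_mem v (H69.cj_mem g hq))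
      rwa [show v * (g * q * g⁻¹) * v⁻¹ = (v * g)⁻¹⁻¹ * q * (v * g)⁻¹ by group] at this
    rw [inv_smul_eq_iff, mul_smul] at h7
    rw [h7]
    exact smul_eq_iff_Nor.2 (H86.Cen_le_Nor _ (h.V_le _ hv))

end SP

end NPS
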