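import Mathlib
import Cfsg.Agent.Lib.NPS.VG2
import Cfsg.Agent.Lib.NPS.VT2
import Cfsg.Agent.S0035

/-! See `blueprint/NPS/README.md`. -/

set_option autoImplicit false
set_option linter.unusedSectionVars false
set_option linter.unusedVariables false
set_option linter.style.haveILetI false

open Cfsg H17.Ord H84 MulAction
open H86 (Cen Nor)
open scoped Pointwise ComplexConjugate

namespace NPS

variable {G : Type*} [Group G] [Finite G] {p r : ℕ} [hp : Fact p.Prime]

namespace VZ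

theorem step (h : SP G p r) {α : Sylow p G} {l : ℕ} (hl : l.Prime)
    (h1 : l ∣ Nat.card (V p (α : Subgroup G)))
    (h2 : l ∣ (Cen (α : Subgroup G)).relIndex (Nor (α : Subgroup G))) :
    ∃ U : Subgroup G, Mx p U ∧ l ∣ Nat.card U := by
  have : Fact l.Prime := ⟨hl⟩
  obtain ⟨Q⟩ : Nonempty (Sylow l (V p (α : Subgroup G))) := inferInstance
  have hc : l ∣ Nat.card ((Q : Subgroup (V p (α : Subgroup G))).map (V p (α : Subgroup G)).subtype) := by
    rw [Subgroup.card_map_of_injective (Subgroup.subtype_injective _)]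
    exact Q.dvd_card_of_dvd_card h1
  obtain ⟨β, hne, hβ⟩ := h.tr h2 (Subgroup.map_subtype_le (Q : Subgroup (V p (α : Subgroup G))))
    (Q.isPGroup'.map _) (by
      rw [Subgroup.relIndex, Subgroup.subgroupOf,
        Subgroup.comap_map_eq_self_of_injective (Subgroup.subtype_injective _)]
      exact Q.not_dvd_index)
  obtain ⟨U, hQU, hU⟩ := h.exists_mx hne (fun e => by
    rw [e, Subgroup.card_bot] at hc
    exact hl.ne_one (Nat.dvd_one.1 hc)) (Subgroup.map_subtype_le _) hβ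
  exact ⟨U, hU, hc.trans (Subgroup.card_dvd_of_le hQU)⟩

theorem s_eq {p r s s' : ℕ} (hr : r < p) (h : s * (p + 2) = p + 1 + s * r)
    (h' : s' * (p + 2) = p + 1 + s' * r) : s = s' := by
  obtain ⟨d, rfl⟩ := Nat.exists_eq_add_of_lt hr
  have e : s * (d + 3) = s' * (d + 3) := by nlinarith
  exact Nat.eq_of_mul_eq_mul_right (by omega) e

theorem mem_hall {W : Type*} [Group W] [Finite W] {J : Subgroup W} [J.Normal]
    (hc : (Nat.card J).Coprime J.index) {x : W} (hx : orderOf x ∣ Nat.card J) : x ∈ J :=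
  Subgroup.zpowers_le.2 (J.pow_index_mem x)
    (mem_zpowers_pow_iff.2 (Nat.Coprime.coprime_dvd_left hx hc).symm)

theorem kernel {W U : Subgroup G} (hle : U ≤ W) (h0 : U ≠ ⊥) (hne : U ≠ W)
    (hc : (U.relIndex W).Coprime (Nat.card U))
    (hf : ∀ v ∈ W, v ∉ U → ∀ u ∈ U, v * u * v⁻¹ ∈ U → u = 1) :
    ∃ Z : Subgroup G, Z ≠ ⊥ ∧ Z ≤ W ∧ Nat.card Z = U.relIndex W ∧
      Subgroup.normalizer (W : Set G) ≤ Subgroup.normalizer (Z : Set G) := by
  have hT : U.subgroupOf W ≠ ⊤ := fun e => hne (le_antisymm hle (Subgroup.subgroupOf_eq_top.1 e))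
  obtain ⟨J, -, hJ, hC⟩ := Cfsg.Agent.S0035.result (U.subgroupOf W) ⟨fun e => h0 (by
      rw [Subgroup.subgroupOf_eq_bot] at e
      exact disjoint_self.1 (e.mono_right hle)), hT, fun g hg => eq_bot_iff.2 fun x hx => by
      have h1 : g⁻¹ * x * g ∈ U.subgroupOf W := by
        simpa using Subgroup.mem_pointwise_smul_iff_inv_smul_mem.1 hx.2
      have h2 := hf g g.2 hg _ h1 (by
        have : (x : G) ∈ U := hx.1
        simpa [mul_assoc] using this)
      have h3 : g⁻¹ * x * g = 1 := Subtype.ext h2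
      rw [Subgroup.mem_bot]
      simpa [mul_assoc] using congrArg (fun y => g * y * g⁻¹) h3⟩
  have c1 : Nat.card J = U.relIndex W := hC.index_eq_card.symm
  have c2 : J.index = Nat.card U :=
    hC.symm.index_eq_card.trans (Nat.card_congr (Subgroup.subgroupOfEquivOfLe hle).toEquiv)
  have c3 : Nat.card (J.map W.subtype) = U.relIndex W := by
    rw [Subgroup.card_map_of_injective (Subgroup.subtype_injective _), c1]
  refine ⟨J.map W.subtype, fun e => hT ?_, Subgroup.map_subtype_le J, c3, fun n hn => ?_⟩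
  · rw [e, Subgroup.card_bot] at c3
    exact Subgroup.index_eq_one.1 c3.symm
  · refine Subgroup.mem_normalizer_fintype ?_
    rintro _ ⟨z, hz, rfl⟩
    have hm : n * z * n⁻¹ ∈ W := (Subgroup.mem_normalizer_iff.1 hn z).1 z.2
    refine ⟨⟨_, hm⟩, mem_hall (by rw [c1, c2]; exact hc) (orderOf_dvd_of_pow_eq_one ?_), rfl⟩
    have e : z ^ Nat.card J = 1 := orderOf_dvd_iff_pow_eq_one.1 (J.orderOf_dvd_natCard hz)
    refine Subtype.ext ?_
    show (n * z * n⁻¹) ^ Nat.card J = 1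
    rw [conj_pow, show (z : G) ^ Nat.card J = 1 from congrArg Subtype.val e]
    simp

end VZ

theorem SP.vz (h : SP G p r) {α : Sylow p G} (hV : V p (α : Subgroup G) ≠ ⊥) :
    ∃ (γ : Sylow p G) (Z : Subgroup G), Z ≠ ⊥ ∧ Z ≤ V p (γ : Subgroup G) ∧
      Nor (γ : Subgroup G) ≤ Subgroup.normalizer (Z : Set G) ∧
      (Nat.card Z).Coprime ((Cen (γ : Subgroup G)).relIndex (Nor (γ : Subgroup G))) := by
  by_cases hc : (Nat.card (V p (α : Subgroup G))).Coprime
      ((Cen (α : Subgroup G)).relIndex (Nor (α : Subgroup G)))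
  · exact ⟨α, _, hV, le_rfl, h.Nor_le α, hc⟩
  obtain ⟨l, hl, h1, h2⟩ := Nat.Prime.not_coprime_iff_dvd.1 hc
  obtain ⟨U, hU, -⟩ := VZ.step h hl h1 h2
  obtain ⟨γ, s, hle, hne, s2, hs, d1, d2, hf⟩ := h.geo hU
  have cop : s.Coprime (s - 1) := by
    obtain ⟨n, rfl⟩ : ∃ n, s = n + 1 := ⟨s - 1, by omega⟩
    simp
  obtain ⟨Z, z0, z1, z2, z3⟩ := VZ.kernel hle hU.ne hne
    (Nat.Coprime.coprime_dvd_left d2 (Nat.Coprime.coprime_dvd_right d1 cop)) hf
  refine ⟨γ, Z, z0, z1, (h.Nor_le γ).trans z3, ?_⟩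
  by_contra hc'
  obtain ⟨l', hl', h3, h4⟩ := Nat.Prime.not_coprime_iff_dvd.1 hc'
  obtain ⟨U', hU', h5⟩ := VZ.step h hl' (h3.trans (Subgroup.card_dvd_of_le z1)) h4
  obtain ⟨γ', s', -, -, -, hs', d1', -⟩ := h.geo hU'
  rw [← VZ.s_eq h.lt hs hs'] at d1'
  rw [z2] at h3
  exact hl'.ne_one (Nat.eq_one_of_dvd_coprimes cop (h3.trans d2) (h5.trans d1'))

end NPS
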